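import Cfsg.Agent.E82.O8.Lin
import Cfsg.Agent.E82.Cls
import Cfsg.Agent.E82.Mach.Main

/-!
# S3369, the row `Ω₈⁺(2)`: fixed spaces of lists of words (helper94)

* `Fz g Z`, `dz g Z` : the fixed space of the words in `Z` and its dimension;
* `mapOk`, `eqOk`, `pairOk` : certificates for inclusions, conjugation and the relation of a group of order nine.
-/

set_option autoImplicit false
set_option maxRecDepth 100000

namespace Cfsg.Agent.E82.O8

open Module Cfsg Cfsg.Lie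
open Cfsg.Agent.H175.LD (Fk mem_Fk)
open Cfsg.Agent.H939.L64 (KK E2 LK em aK rE rE_apply rE_mul rE_one rE_inv_self rE_self_inv rEq rEq_apply finrank_LK)
open Cfsg.Agent.E82.Mach (pw pw_nil pw_cons pw_append pw_single flat)

/-- the relations accepted by `ok` hold -/
def Sd {G : Type} [Group G] (ok : List ℕ → List ℕ → Bool) (g : ℕ → G) : Prop := ∀ w w', ok w w' = true → pw g w = pw g w'

/-- the vectors fixed by a list of words -/
def Fz (g : ℕ → E2) (Z : List (List ℕ)) : Submodule KK LK where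
  carrier := {v | ∀ w ∈ Z, rE (pw g w) v = v}
  zero_mem' := fun _ _ => map_zero _
  add_mem' := fun {x y} hx hy w hw => by rw [map_add, hx w hw, hy w hw]
  smul_mem' := fun c x hx w hw => by rw [map_smul, hx w hw]

/-- the dimension -/
noncomputable def dz (g : ℕ → E2) (Z : List (List ℕ)) : ℕ := finrank KK (Fz g Z)

variable {ok : List ℕ → List ℕ → Bool} {g : ℕ → E2}

theorem mem_Fz {Z : List (List ℕ)} {v : LK} : v ∈ Fz g Z ↔ ∀ w ∈ Z, rE (pw g w) v = v := Iff.rfl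

theorem Fz_cons (w : List ℕ) (Z : List (List ℕ)) : Fz g (w :: Z) = Fz g Z ⊓ Fk (rE (pw g w)) := by
  ext v
  rw [Submodule.mem_inf, mem_Fz, mem_Fz, List.forall_mem_cons, and_comm]
  rfl

theorem Fz_app {Z Z' : List (List ℕ)} {v : LK} (h : v ∈ Fz g Z) (h' : v ∈ Fz g Z') : v ∈ Fz g (Z ++ Z') := fun w hw =>
  (List.mem_append.1 hw).elim (h w) (h' w)

theorem dz_nil : dz g [] = 248 := by
  have h : Fz g [] = ⊤ := eq_top_iff.2 fun v _ w hw => absurd hw List.not_mem_nil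
  rw [dz, h, finrank_top, finrank_LK]

theorem dz_one (w : List ℕ) : dz g [w] = cf (pw g w) := by
  have h : Fz g [w] = Cfsg.Agent.H943.RepAdd.eig rE (pw g w) 1 := by
    ext v
    rw [mem_eig1, mem_Fz, List.forall_mem_singleton]
  rw [dz, h, cf]

theorem rE_app (w w' : List ℕ) (v : LK) : rE (pw g (w ++ w')) v = rE (pw g w) (rE (pw g w') v) := by
  rw [pw_append, rE_mul]

theorem fix_flat {Z : List (List ℕ)} {v : LK} (hv : v ∈ Fz g Z) (c : List ℕ) : rE (pw g (flat Z c)) v = v := by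
  induction c with
  | nil => exact rE_one v
  | cons i c ih =>
    rw [flat, List.flatMap_cons, rE_app]
    rw [flat] at ih
    rw [ih]
    by_cases hi : i < Z.length
    · rw [List.getD_eq_getElem _ _ hi]; exact hv _ (List.getElem_mem hi)
    · rw [List.getD_eq_default _ _ (not_lt.1 hi)]; exact rE_one v

/-- a relation modulo the words of `Z` -/
theorem Sd.act (h : Sd ok g) {Z : List (List ℕ)} {w w' c : List ℕ} (e : ok w (w' ++ flat Z c) = true) {v : LK}
    (hv : v ∈ Fz g Z) : rE (pw g w) v = rE (pw g w') v := by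
  rw [h _ _ e, rE_app, fix_flat hv]

/-- the word `c` conjugates the words of `Z'` into the group generated by `Z` -/
def mapOk (ok : List ℕ → List ℕ → Bool) (c : List ℕ) (Z Z' cs : List (List ℕ)) : Bool :=
  (List.range Z'.length).all fun i => ok (Z'.getD i [] ++ c) (c ++ flat Z (cs.getD i []))

theorem Sd.map_mem (h : Sd ok g) {c : List ℕ} {Z Z' cs : List (List ℕ)} (e : mapOk ok c Z Z' cs = true) {v : LK}
    (hv : v ∈ Fz g Z) : rE (pw g c) v ∈ Fz g Z' := by
  intro w hw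
  obtain ⟨i, hi, rfl⟩ := List.getElem_of_mem hw
  have e1 := h.act (List.all_eq_true.1 e i (List.mem_range.2 hi)) hv
  rwa [List.getD_eq_getElem _ _ hi, rE_app] at e1

theorem Sd.le (h : Sd ok g) {Z Z' cs : List (List ℕ)} (e : mapOk ok [] Z Z' cs = true) : Fz g Z ≤ Fz g Z' := fun v hv => by
  have := h.map_mem e hv
  rwa [pw_nil, rE_one] at this

theorem Sd.dle (h : Sd ok g) {c : List ℕ} {Z Z' cs : List (List ℕ)} (e : mapOk ok c Z Z' cs = true) : dz g Z ≤ dz g Z' := by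
  rw [dz, dz, ← LinearEquiv.finrank_map_eq (rEq (pw g c)) (Fz g Z)]
  refine Submodule.finrank_mono ?_
  rintro _ ⟨v, hv, rfl⟩
  exact h.map_mem e hv

/-- the certificates for an equality of dimensions -/
abbrev EC : Type := (List ℕ × List (List ℕ)) × List ℕ × List (List ℕ)

/-- two lists generate conjugate groups -/
def eqOk (ok : List ℕ → List ℕ → Bool) (Z Z' : List (List ℕ)) (e : EC) : Bool :=
  mapOk ok e.1.1 Z Z' e.1.2 && mapOk ok e.2.1 Z' Z e.2.2

theorem Sd.deq (h : Sd ok g) {Z Z' : List (List ℕ)} {e : EC} (k : eqOk ok Z Z' e = true) : dz g Z = dz g Z' := by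
  rw [eqOk, Bool.and_eq_true] at k
  exact le_antisymm (h.dle k.1) (h.dle k.2)

theorem Sd.cfq (h : Sd ok g) {w w' : List ℕ} {e : EC} (k : eqOk ok [w] [w'] e = true) : cf (pw g w) = dz g [w'] :=
  (dz_one w).symm.trans (h.deq k)

theorem Fz_eq {Z Z' : List (List ℕ)} (h : Fz g Z ≤ Fz g Z') (e : dz g Z' ≤ dz g Z) : Fz g Z' ≤ Fz g Z :=
  (Submodule.eq_of_le_of_finrank_le h e).ge

/-- the words `a`, `b` act on the fixed space of `Z` as commuting elements of order three -/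
def pairOk (ok : List ℕ → List ℕ → Bool) (Z : List (List ℕ)) (a b : List ℕ) (ca cb : List (List ℕ)) (c1 c2 c3 : List ℕ)
    (Z0 Z1 Z2 Z3 Z4 : List (List ℕ)) (e0 e1 e2 e3 e4 : EC) : Bool :=
  mapOk ok a Z Z ca && mapOk ok b Z Z cb && ok (b ++ a) ((a ++ b) ++ flat Z c1) && ok (a ++ (a ++ a)) ([] ++ flat Z c2) &&
    ok (b ++ (b ++ b)) ([] ++ flat Z c3) && eqOk ok (b :: a :: Z) Z0 e0 && eqOk ok (a :: Z) Z1 e1 && eqOk ok (b :: Z) Z2 e2 &&
    eqOk ok ((a ++ b) :: Z) Z3 e3 && eqOk ok ((a ++ (b ++ b)) :: Z) Z4 e4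

theorem three_ne : (3 : KK) ≠ 0 := by
  have h : (3 : KK) = 1 := by linear_combination (CharTwo.two_eq_zero : (2 : KK) = 0)
  rw [h]; exact one_ne_zero

theorem Sd.cube' (h : Sd ok g) {Z : List (List ℕ)} {a c : List ℕ} (e : ok (a ++ (a ++ a)) ([] ++ flat Z c) = true) {v : LK}
    (hv : v ∈ Fz g Z) : rE (pw g a) (rE (pw g a) (rE (pw g a) v)) = v := by
  have e1 := h.act e hv
  rwa [rE_app, rE_app, pw_nil, rE_one] at e1

/-- **the relation of a group of order nine** -/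
theorem Sd.pair (h : Sd ok g) {Z : List (List ℕ)} {a b : List ℕ} {ca cb : List (List ℕ)} {c1 c2 c3 : List ℕ}
    {Z0 Z1 Z2 Z3 Z4 : List (List ℕ)} {e0 e1 e2 e3 e4 : EC} (k : pairOk ok Z a b ca cb c1 c2 c3 Z0 Z1 Z2 Z3 Z4 e0 e1 e2 e3 e4 = true) :
    dz g Z + 3 * dz g Z0 = dz g Z1 + dz g Z2 + dz g Z3 + dz g Z4 := by
  simp only [pairOk, Bool.and_eq_true] at k
  obtain ⟨⟨⟨⟨⟨⟨⟨⟨⟨k1, k2⟩, k3⟩, k4⟩, k5⟩, k6⟩, k7⟩, k8⟩, k9⟩, k10⟩ := k
  have e := Cfsg.Agent.H175.LD.four_rel_on three_ne (Fz g Z) (R := rE (pw g a)) (S := rE (pw g b))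
    (fun y hy => h.map_mem k1 hy) (fun y hy => h.map_mem k2 hy)
    (fun y hy => (rE_app b a y).symm.trans ((h.act k3 hy).trans (rE_app a b y))) (fun y hy => h.cube' k4 hy)
    (fun y hy => h.cube' k5 hy)
  have a1 : rE (pw g a) ∘ₗ rE (pw g b) = rE (pw g (a ++ b)) := LinearMap.ext fun v => by
    rw [LinearMap.comp_apply, rE_app]
  have a2 : rE (pw g a) ∘ₗ rE (pw g b) ∘ₗ rE (pw g b) = rE (pw g (a ++ (b ++ b))) :=
    LinearMap.ext fun v => by rw [LinearMap.comp_apply, LinearMap.comp_apply, rE_app, rE_app]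
  rw [a1, a2, ← inf_assoc, ← Fz_cons, ← Fz_cons, ← Fz_cons, ← Fz_cons, ← Fz_cons] at e
  rw [← h.deq k6, ← h.deq k7, ← h.deq k8, ← h.deq k9, ← h.deq k10]
  exact e

theorem Sd.cube (h : Sd ok g) {a : List ℕ} (k : ok (a ++ (a ++ a)) [] = true) : pw g a ^ 3 = 1 := by
  rw [pow_succ', pow_two, ← pw_append, ← pw_append]
  exact h _ _ k

theorem Sd.comm (h : Sd ok g) {a b : List ℕ} (k : ok (a ++ b) (b ++ a) = true) : Commute (pw g a) (pw g b) := by
  have := h _ _ k
  rwa [pw_append, pw_append] at this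

theorem Sd.inv (h : Sd ok g) {a b : List ℕ} (k : ok (a ++ b) [] = true) : (pw g a)⁻¹ = pw g b :=
  inv_eq_of_mul_eq_one_right ((pw_append g a b).symm.trans (h _ _ k))

theorem Sd.conj (h : Sd ok g) {c a b : List ℕ} (k : ok (c ++ a) (b ++ c) = true) : pw g c * pw g a * (pw g c)⁻¹ = pw g b := by
  rw [← pw_append, h _ _ k, pw_append, mul_inv_cancel_right]

theorem fd3' {x : E2} (hx : x ^ 3 = 1) : cf x = 248 ∨ cf x = 134 ∨ cf x = 92 ∨ cf x = 86 ∨ cf x = 80 := by
  by_cases h : x = 1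
  · exact Or.inl (h ▸ fd_one)
  · exact Or.inr (fd3 hx h)

theorem Sd.val (h : Sd ok g) {a : List ℕ} (k : ok (a ++ (a ++ a)) [] = true) :
    dz g [a] = 248 ∨ dz g [a] = 134 ∨ dz g [a] = 92 ∨ dz g [a] = 86 ∨ dz g [a] = 80 := by
  rw [dz_one]; exact fd3' (h.cube k)

/-- the check for the parallelogram law -/
def parOk (ok : List ℕ → List ℕ → Bool) (a b a1 b1 p q : List ℕ) (e1 e2 e3 e4 : EC) : Bool :=
  ok (a ++ (a ++ a)) [] && ok (b ++ (b ++ b)) [] && ok (a ++ b) (b ++ a) && eqOk ok [a] [a1] e1 && eqOk ok [b] [b1] e2 &&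
    eqOk ok [a ++ b] [p] e3 && eqOk ok [a ++ (b ++ b)] [q] e4

theorem Sd.par (h : Sd ok g) {a b a1 b1 p q : List ℕ} {e1 e2 e3 e4 : EC} (k : parOk ok a b a1 b1 p q e1 e2 e3 e4 = true) :
    qe (dz g [p]) + qe (dz g [q]) = 2 * (qe (dz g [a1]) + qe (dz g [b1])) := by
  simp only [parOk, Bool.and_eq_true] at k
  obtain ⟨⟨⟨⟨⟨⟨k1, k2⟩, k3⟩, k4⟩, k5⟩, k6⟩, k7⟩ := k
  have e := Cfsg.Agent.E82.par (h.cube k1) (h.cube k2) (h.comm k3)
  rwa [h.inv k2, ← pw_append, ← pw_append, h.cfq k4, h.cfq k5, h.cfq k6, h.cfq k7] at e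

/-- a letter is not trivial -/
theorem Sd.ne_one (h : Sd ok g) {j : ℕ} {w w' : List ℕ} (k1 : ok w w' = true) (k2 : ok (w.filter (· != j)) [] = true)
    (h0 : pw g w' ≠ 1) : g j ≠ 1 := by
  intro e
  have key : ∀ w : List ℕ, pw g (w.filter (· != j)) = pw g w := by
    intro w
    induction w with
    | nil => rfl
    | cons i w ih =>
      by_cases hi : i = j
      · rw [List.filter_cons_of_neg (by simp [hi]), ih, pw_cons, hi, e, one_mul]
      · rw [List.filter_cons_of_pos (by simp [hi]), pw_cons, pw_cons, ih]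
  exact h0 (by rw [← h _ _ k1, ← key, h _ _ k2, pw_nil])

theorem dz_ne {j : ℕ} (h : g j ≠ 1) : dz g [[j]] ≠ 248 := by
  intro e
  have e1 : Fz g [[j]] = ⊤ := Submodule.eq_top_of_finrank_eq (e.trans finrank_LK.symm)
  refine h (Cfsg.Agent.H939.L64.rE_inj fun v => ?_)
  have := (e1 ▸ Submodule.mem_top : v ∈ Fz g [[j]]) [j] List.mem_cons_self
  rwa [pw_single] at this

/-! ### the form on the fixed space of an elementary abelian group -/

/-- the words are commuting elements of order three -/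
def abOk (ok : List ℕ → List ℕ → Bool) (Z : List (List ℕ)) : Bool :=
  Z.all fun a => ok (a ++ (a ++ a)) [] && Z.all fun b => ok (a ++ b) (b ++ a)

theorem exists_proj {B : LK →ₗ[KK] LK →ₗ[KK] KK} (hB : ∀ (x : E2) v w, B (rE x v) (rE x w) = B v w) {Z : List (List ℕ)}
    (h1 : ∀ a ∈ Z, pw g a ^ 3 = 1) (h2 : ∀ a ∈ Z, ∀ b ∈ Z, Commute (pw g a) (pw g b)) (x : LK) :
    ∃ y ∈ Fz g Z, ∀ v ∈ Fz g Z, B v y = B v x := by
  induction Z with
  | nil => exact ⟨x, fun _ hw => absurd hw List.not_mem_nil, fun _ _ => rfl⟩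
  | cons a Z ih =>
    obtain ⟨y, hy, e⟩ := ih (fun b hb => h1 b (List.mem_cons_of_mem _ hb)) fun b hb c hc =>
      h2 b (List.mem_cons_of_mem _ hb) c (List.mem_cons_of_mem _ hc)
    have k : ∀ u ∈ Fz g Z, rE (pw g a) u ∈ Fz g Z := fun u hu b hb => by
      rw [← rE_mul, (h2 b (List.mem_cons_of_mem _ hb) a List.mem_cons_self).eq, rE_mul, hu b hb]
    refine ⟨y + rE (pw g a) y + rE (pw g a) (rE (pw g a) y), ?_, fun v hv => ?_⟩
    · rw [Fz_cons]
      refine ⟨(Fz g Z).add_mem ((Fz g Z).add_mem hy (k _ hy)) (k _ (k _ hy)), ?_⟩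
      have e3 : rE (pw g a) (rE (pw g a) (rE (pw g a) y)) = y := by
        rw [← rE_mul, ← rE_mul, ← pow_two, ← pow_succ, h1 a List.mem_cons_self, rE_one]
      rw [SetLike.mem_coe, mem_Fk, map_add, map_add, e3]
      abel
    · have k1 : ∀ u, B v (rE (pw g a) u) = B v u := fun u => by
        conv_lhs => rw [← hv a List.mem_cons_self, hB]
      rw [map_add, map_add, k1, k1 (rE (pw g a) y), k1, e v fun b hb => hv b (List.mem_cons_of_mem _ hb)]
      linear_combination B v x * (CharTwo.two_eq_zero : (2 : KK) = 0)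

/-- the operator of a word on a fixed space -/
noncomputable def Sd.op (h : Sd ok g) {c : List ℕ} {Z cs : List (List ℕ)} (e : mapOk ok c Z Z cs = true) :
    Fz g Z →ₗ[KK] Fz g Z := (rE (pw g c)).restrict fun _ hv => h.map_mem e hv

theorem Sd.op_apply (h : Sd ok g) {c : List ℕ} {Z cs : List (List ℕ)} (e : mapOk ok c Z Z cs = true) (v : Fz g Z) :
    (h.op e v : LK) = rE (pw g c) v := rfl

theorem Sd.op_fk (h : Sd ok g) {c : List ℕ} {Z cs : List (List ℕ)} (e : mapOk ok c Z Z cs = true) :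
    finrank KK (Fk (h.op e)) = dz g (c :: Z) := by
  rw [dz, Fz_cons]
  exact Cfsg.Agent.H175.LD.finrank_restrict _ _ fun _ => Subtype.ext_iff

theorem Sd.op_fk2 (h : Sd ok g) {c c' : List ℕ} {Z cs cs' : List (List ℕ)} (e : mapOk ok c Z Z cs = true)
    (e' : mapOk ok c' Z Z cs' = true) : finrank KK ↥(Fk (h.op e) ⊓ Fk (h.op e')) = dz g (c' :: c :: Z) := by
  rw [dz, Fz_cons, Fz_cons, inf_assoc]
  exact Cfsg.Agent.H175.LD.finrank_restrict _ _ fun _ => and_congr Subtype.ext_iff Subtype.ext_iff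

theorem Sd.form (h : Sd ok g) {Z : List (List ℕ)} (k : abOk ok Z = true) : ∃ B : LinearMap.BilinForm KK (Fz g Z), Frm B ∧
    ∀ {c : List ℕ} {cs : List (List ℕ)} (e : mapOk ok c Z Z cs = true) (v w : Fz g Z), B (h.op e v) (h.op e w) = B v w := by
  obtain ⟨B, h1, h2, h3⟩ := Cfsg.Agent.H939.L64.exists_form
  have hB : ∀ (x : E2) v w, B (rE x v) (rE x w) = B v w := fun x => h1 (em x)
  simp only [abOk, List.all_eq_true, Bool.and_eq_true] at k
  refine ⟨LinearMap.BilinForm.restrict B (Fz g Z), ⟨fun v w => h2 v w, fun v hv => Subtype.ext (h3 v fun x => ?_)⟩,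
    fun e v w => hB _ _ _⟩
  obtain ⟨y, hy, e⟩ := exists_proj hB (fun a ha => h.cube (k a ha).1) (fun a ha b hb => h.comm ((k a ha).2 b hb)) x
  exact (e v v.2).symm.trans (hv ⟨y, hy⟩)

end Cfsg.Agent.E82.O8
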