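import Cfsg.Agent.H175.LD.Four

/-!
# S3369, the row `Ω₈⁺(2)`: linear algebra (helper94)

Involutions which preserve a symmetric nondegenerate form in characteristic two.
-/

set_option autoImplicit false
set_option linter.unusedSectionVars false

namespace Cfsg.Agent.E82.O8

open Module
open Cfsg.Agent.H175.LD (Fk mem_Fk)

variable {K V : Type*} [Field K] [AddCommGroup V] [Module K V] [FiniteDimensional K V]

/-- a symmetric nondegenerate form -/
structure Frm (B : LinearMap.BilinForm K V) : Prop where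
  symm : ∀ v w, B v w = B w v
  nd : ∀ v, (∀ w, B v w = 0) → v = 0

/-- an isometric involution -/
structure Inv2 (B : LinearMap.BilinForm K V) (s : V →ₗ[K] V) : Prop where
  sq : ∀ v, s (s v) = v
  iso : ∀ v w, B (s v) (s w) = B v w

/-- the commutator space -/
def Nr (s : V →ₗ[K] V) : Submodule K V := LinearMap.range (s - LinearMap.id)

theorem mem_Nr {s : V →ₗ[K] V} {x : V} : x ∈ Nr s ↔ ∃ v, s v - v = x := Iff.rfl

theorem Nr_add_Fk (s : V →ₗ[K] V) : finrank K (Nr s) + finrank K (Fk s) = finrank K V := by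
  have h : LinearMap.ker (s - LinearMap.id) = Fk s := by
    ext v
    rw [LinearMap.mem_ker, mem_Fk]
    exact sub_eq_zero
  rw [← h]
  exact LinearMap.finrank_range_add_finrank_ker _

theorem dim_sup {P Q : Submodule K V} (h : ∀ v ∈ P, v ∈ Q → v = 0) :
    finrank K ↥(P ⊔ Q) = finrank K P + finrank K Q := by
  have e : P ⊓ Q = ⊥ := (Submodule.eq_bot_iff _).2 fun v hv => h v hv.1 hv.2
  rw [← Submodule.finrank_sup_add_finrank_inf_eq, e, finrank_bot, add_zero]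

theorem zero_of_dim {P Q : Submodule K V} (h : finrank K P + finrank K Q ≤ finrank K ↥(P ⊔ Q)) {v : V} (h1 : v ∈ P)
    (h2 : v ∈ Q) : v = 0 := by
  have e := Submodule.finrank_sup_add_finrank_inf_eq P Q
  have e1 : P ⊓ Q = ⊥ := Submodule.finrank_eq_zero.1 (by omega)
  exact (Submodule.eq_bot_iff _).1 e1 v ⟨h1, h2⟩

variable {B : LinearMap.BilinForm K V}

theorem Frm.perp (h : Frm B) (W : Submodule K V) : finrank K W + finrank K (B.orthogonal W) = finrank K V := by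
  have e := LinearMap.BilinForm.finrank_add_finrank_orthogonal' (B := B) W
  have e1 : LinearMap.ker B = ⊥ := (Submodule.eq_bot_iff _).2 fun v hv => h.nd v fun w => by
    rw [LinearMap.mem_ker.1 hv]; rfl
  rwa [e1, inf_bot_eq, finrank_bot, add_zero] at e

theorem Frm.le (h : Frm B) {P Q : Submodule K V} (e : ∀ v ∈ P, (∀ w ∈ Q, B w v = 0) → v = 0) :
    finrank K P ≤ finrank K Q := by
  have e1 := dim_sup (P := P) (Q := B.orthogonal Q) e
  have e2 := h.perp Q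
  have e3 := Submodule.finrank_le (P ⊔ B.orthogonal Q)
  omega

theorem Frm.pp (h : Frm B) {Y : Submodule K V} {v : V} (e : ∀ w ∈ B.orthogonal Y, B w v = 0) : v ∈ Y := by
  have e1 : Y = B.orthogonal (B.orthogonal Y) := by
    refine Submodule.eq_of_le_of_finrank_le (fun y hy w hw => (h.symm _ _).trans (hw y hy)) ?_
    have e2 := h.perp Y
    have e3 := h.perp (B.orthogonal Y)
    omega
  rw [e1]
  exact e

theorem Inv2.adj {s : V →ₗ[K] V} (h : Inv2 B s) (v w : V) : B (s v - v) w = B v (s w - w) := by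
  rw [map_sub, LinearMap.sub_apply, map_sub, ← h.iso (s v) w, h.sq]

theorem Inv2.fix_of_perp (hB : Frm B) {s : V →ₗ[K] V} (h : Inv2 B s) {w : V} (e : ∀ n ∈ Nr s, B n w = 0) : s w = w :=
  sub_eq_zero.1 (hB.nd _ fun v => by rw [hB.symm, ← h.adj]; exact e _ ⟨v, rfl⟩)

theorem Inv2.perp_fix {s : V →ₗ[K] V} (h : Inv2 B s) {n w : V} (hn : n ∈ Nr s) (e : s w = w) : B n w = 0 := by
  obtain ⟨v, rfl⟩ := mem_Nr.1 hn
  rw [h.adj, e, sub_self, map_zero]

theorem two_v (h2 : (2 : K) = 0) (v : V) : v + v = 0 := by rw [← two_smul K, h2, zero_smul]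

theorem fix_Nr (h2 : (2 : K) = 0) {s : V →ₗ[K] V} (h : ∀ v, s (s v) = v) {n : V} (hn : n ∈ Nr s) : s n = n := by
  obtain ⟨v, rfl⟩ := mem_Nr.1 hn
  rw [map_sub, h]
  linear_combination (norm := abel_nf) two_v h2 v - two_v h2 (s v)

theorem comm_Nr {s t : V →ₗ[K] V} (h : ∀ v, s (t v) = t (s v)) {n : V} (hn : n ∈ Nr s) : t n ∈ Nr s := by
  obtain ⟨v, rfl⟩ := mem_Nr.1 hn
  exact ⟨t v, by rw [map_sub, ← h]; rfl⟩

/-- two commuting involutions with independent commutator spaces -/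
theorem Inv2.orth {s t : V →ₗ[K] V} (hs : Inv2 B s) (h : ∀ v, s (t v) = t (s v)) (e : ∀ v ∈ Nr s, v ∈ Nr t → v = 0) {n m : V}
    (hn : n ∈ Nr s) (hm : m ∈ Nr t) : B n m = 0 := by
  refine hs.perp_fix hn (sub_eq_zero.1 (e _ ⟨m, rfl⟩ ?_))
  exact (Nr t).sub_mem (comm_Nr (fun v => (h v).symm) hm) hm

section three

variable (h2 : (2 : K) = 0) {r s : V →ₗ[K] V} (hr : ∀ v, r (r (r v)) = v) (hc : ∀ v, s (r v) = r (r (s v)))
  (hf : ∀ v, r v = v → s v = v)

include hr hc hf in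
theorem av_Nr {n : V} (hn : n ∈ Nr s) : n + r n + r (r n) = 0 := by
  obtain ⟨v, rfl⟩ := mem_Nr.1 hn
  have e := hf (v + r v + r (r v)) (by rw [map_add, map_add, hr]; abel)
  rw [map_add, map_add, hc, hc, hc, hr] at e
  rw [map_sub, map_sub]
  linear_combination (norm := abel_nf) e

include h2 hr hc hf in
theorem Nr_Fk {n : V} (hn : n ∈ Nr s) (e : r n = n) : n = 0 := by
  have e1 := av_Nr hr hc hf hn
  rwa [e, e, two_v h2, zero_add] at e1

include h2 hr hc hf in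
/-- the rank of an involution that fixes the fixed space of an element of order three which it inverts -/
theorem rank_le (hs : ∀ v, s (s v) = v) : finrank K (Fk r) + 2 * finrank K (Nr s) ≤ finrank K V := by
  have e1 := dim_sup (P := Nr s) (Q := Fk r) fun v h1 h3 => Nr_Fk h2 hr hc hf h1 h3
  have e2 : finrank K ↥(Nr s ⊔ Fk r) ≤ finrank K (Fk s) :=
    Submodule.finrank_mono (sup_le (fun v hv => fix_Nr h2 hs hv) hf)
  have e3 := Nr_add_Fk s
  omega

include h2 hr hc hf in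
theorem dim_three (hs : ∀ v, s (s v) = v) {t : V →ₗ[K] V} (hrt : ∀ v, r (t v) = t (r v)) :
    finrank K ↥(Fk t ⊓ Fk r) + 2 * finrank K ↥(Nr s ⊓ Fk t) ≤ finrank K (Fk t) := by
  have hinj : Function.Injective r := fun a b h => by rw [← hr a, h, hr]
  have e0 : finrank K ((Nr s ⊓ Fk t).map r) = finrank K ↥(Nr s ⊓ Fk t) :=
    (LinearEquiv.finrank_eq (Submodule.equivMapOfInjective r hinj _)).symm
  have e1 := dim_sup (P := Nr s ⊓ Fk t) (Q := (Nr s ⊓ Fk t).map r) (by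
    rintro v h1 ⟨n, h3, rfl⟩
    have a1 := fix_Nr h2 hs h1.1
    rw [hc, fix_Nr h2 hs h3.1] at a1
    rw [Nr_Fk h2 hr hc hf h3.1 (hinj a1), map_zero])
  have e2 := dim_sup (P := Fk t ⊓ Fk r) (Q := (Nr s ⊓ Fk t) ⊔ (Nr s ⊓ Fk t).map r) (by
    intro v h1 h3
    obtain ⟨a, ha, _, ⟨b, hb, rfl⟩, rfl⟩ := Submodule.mem_sup.1 h3
    have a1 := av_Nr hr hc hf ha.1
    have a2 := av_Nr hr hc hf hb.1
    have a3 : r (a + r b) = a + r b := h1.2
    have a4 : (a + r b) + r (a + r b) + r (r (a + r b)) = 0 := by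
      rw [map_add, map_add, hr]
      linear_combination (norm := abel_nf) a1 + a2
    rwa [a3, a3, two_v h2, zero_add] at a4)
  have e3 : finrank K ↥((Fk t ⊓ Fk r) ⊔ ((Nr s ⊓ Fk t) ⊔ (Nr s ⊓ Fk t).map r)) ≤ finrank K (Fk t) := by
    refine Submodule.finrank_mono (sup_le inf_le_left (sup_le inf_le_right ?_))
    rintro _ ⟨n, hn, rfl⟩
    rw [mem_Fk, ← hrt, mem_Fk.1 hn.2]
  omega

end three

/-- **three commuting involutions** -/
theorem fix_a (h2 : (2 : K) = 0) (hB : Frm B) {s1 s3 s4 : V →ₗ[K] V} (h1 : Inv2 B s1) (h3 : Inv2 B s3) (h4 : Inv2 B s4)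
    (c13 : ∀ v, s1 (s3 v) = s3 (s1 v)) (c14 : ∀ v, s1 (s4 v) = s4 (s1 v)) (c34 : ∀ v, s3 (s4 v) = s4 (s3 v))
    {Y : Submodule K V} (hY : ∀ v ∈ Y, s1 v = v) (dV : finrank K V = 32) (dY : finrank K Y = 16)
    (d3 : finrank K (Nr s3) ≤ 8) (d4 : finrank K (Nr s4) ≤ 8) (d1 : finrank K (Nr s1) = finrank K (Nr s3)) :
    ∃ v ∈ Y, v ≠ 0 ∧ s3 v = v ∧ s4 v = v := by
  by_contra hc
  have a1 : finrank K (⊤ : Submodule K V) ≤ finrank K ↥(B.orthogonal Y ⊔ (Nr s3 ⊔ Nr s4)) := hB.le fun v _ hv => by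
    by_contra h0
    exact hc ⟨v, hB.pp fun w hw => hv w (Submodule.mem_sup_left hw), h0,
      h3.fix_of_perp hB fun n hn => hv n (Submodule.mem_sup_right (Submodule.mem_sup_left hn)),
      h4.fix_of_perp hB fun n hn => hv n (Submodule.mem_sup_right (Submodule.mem_sup_right hn))⟩
  rw [finrank_top] at a1
  have a2 := hB.perp Y
  have a3 := Submodule.finrank_add_le_finrank_add_finrank (B.orthogonal Y) (Nr s3 ⊔ Nr s4)
  have a4 := Submodule.finrank_add_le_finrank_add_finrank (Nr s3) (Nr s4)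
  have b1 : ∀ v ∈ Nr s1, v ∈ Nr s3 ⊔ Nr s4 → v = 0 := fun v hv h =>
    zero_of_dim (P := B.orthogonal Y) (by omega) (fun y hy => (hB.symm _ _).trans (h1.perp_fix hv (hY y hy))) h
  have b2 : ∀ v ∈ Nr s3, v ∈ Nr s4 → v = 0 := fun v => zero_of_dim (by omega)
  have b3 : Nr s1 ⊔ (Nr s3 ⊔ Nr s4) ≤ B.orthogonal (Nr s3 ⊔ Nr s4) := by
    have k : ∀ x, (∀ n ∈ Nr s3, B n x = 0) → (∀ n ∈ Nr s4, B n x = 0) → x ∈ B.orthogonal (Nr s3 ⊔ Nr s4) := by
      intro x k3 k4 n hn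
      obtain ⟨a, ha, b, hb, rfl⟩ := Submodule.mem_sup.1 hn
      show B (a + b) x = 0
      rw [map_add, LinearMap.add_apply, k3 a ha, k4 b hb, add_zero]
    refine sup_le (fun x hx => k x (fun n hn => ?_) fun n hn => ?_) (sup_le (fun x hx => k x (fun n hn => ?_) fun n hn => ?_)
      fun x hx => k x (fun n hn => ?_) fun n hn => ?_)
    · exact (hB.symm _ _).trans (h1.orth c13 (fun v a b => b1 v a (Submodule.mem_sup_left b)) hx hn)
    · exact (hB.symm _ _).trans (h1.orth c14 (fun v a b => b1 v a (Submodule.mem_sup_right b)) hx hn)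
    · exact h3.perp_fix hn (fix_Nr h2 h3.sq hx)
    · exact (hB.symm _ _).trans (h3.orth c34 b2 hx hn)
    · exact h3.orth c34 b2 hn hx
    · exact h4.perp_fix hn (fix_Nr h2 h4.sq hx)
  have b4 := Submodule.finrank_mono b3
  have b5 := hB.perp (Nr s3 ⊔ Nr s4)
  rw [dim_sup b1] at b4
  omega

/-- **three involutions permuted by an element of order three** -/
theorem fix_b (h2 : (2 : K) = 0) (hB : Frm B) {t s1 s3 s2 r : V →ₗ[K] V} (ht : ∀ v, t (t (t v)) = v)
    (hti : ∀ v w, B (t v) (t w) = B v w) (h1 : Inv2 B s1) (h3 : Inv2 B s3) (h0 : Inv2 B s2) (e3 : ∀ v, s3 (t v) = t (s1 v))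
    (c13 : ∀ v, s1 (s3 v) = s3 (s1 v)) (e2 : ∀ v, s2 (t v) = t (s2 v)) (hr : ∀ v, r (r (r v)) = v)
    (hc : ∀ v, s2 (r v) = r (r (s2 v))) (hf : ∀ v, r v = v → s2 v = v) (hrt : ∀ v, r (t v) = t (r v))
    (d1 : finrank K (Nr s1) ≤ 8) (dm : 11 ≤ finrank K (Fk t)) (da : finrank K (Fk t) ≤ 3 * finrank K ↥(Fk t ⊓ Fk r)) :
    ∃ v, v ≠ 0 ∧ t v = v ∧ s1 v = v ∧ s2 v = v := by
  by_contra hc0
  obtain ⟨p, hp⟩ : ∃ p : V →ₗ[K] V, ∀ v, p v = v + t v + t (t v) := ⟨LinearMap.id + t + t ∘ₗ t, fun _ => rfl⟩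
  have p1 : ∀ v, t (p v) = p v := fun v => by rw [hp, map_add, map_add, ht]; abel
  have p2 : ∀ v, p (t v) = p v := fun v => by rw [hp, hp, ht]; abel
  have p3 : ∀ x v, t v = v → B (p x) v = B x v := fun x v hv => by
    have k : ∀ y, B (t y) v = B y v := fun y => by conv_lhs => rw [← hv, hti]
    rw [hp, map_add, map_add, LinearMap.add_apply, LinearMap.add_apply, k (t x), k x]
    linear_combination B x v * h2
  have a1 : finrank K (Fk t) ≤ finrank K ↥((Nr s2 ⊓ Fk t) ⊔ (Nr s1).map p) := hB.le fun v hv h => by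
    by_contra h4
    refine hc0 ⟨v, h4, hv, h1.fix_of_perp hB fun n hn => ?_, h0.fix_of_perp hB fun n hn => ?_⟩
    · rw [← p3 n v hv]
      exact h _ (Submodule.mem_sup_right ⟨n, hn, rfl⟩)
    · rw [← p3 n v hv]
      refine h _ (Submodule.mem_sup_left ⟨?_, p1 n⟩)
      rw [hp]
      exact (Nr s2).add_mem ((Nr s2).add_mem hn (comm_Nr e2 hn)) (comm_Nr e2 (comm_Nr e2 hn))
  have a2 := Submodule.finrank_add_le_finrank_add_finrank (Nr s2 ⊓ Fk t) ((Nr s1).map p)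
  have a3 := dim_three h2 hr hc hf h0.sq hrt
  have a4 := LinearMap.finrank_range_add_finrank_ker (p.domRestrict (Nr s1))
  rw [LinearMap.range_domRestrict] at a4
  have a5 : LinearMap.ker (p.domRestrict (Nr s1)) = ⊥ := Submodule.finrank_eq_zero.1 (by omega)
  have b1 : ∀ n ∈ Nr s1, p n = 0 → n = 0 := fun n hn h =>
    congrArg Subtype.val ((Submodule.eq_bot_iff _).1 a5 ⟨n, hn⟩ h)
  obtain ⟨m, hm⟩ : ∃ m : V → V, ∀ v, m v = s1 (s3 v - v) - (s3 v - v) := ⟨_, fun _ => rfl⟩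
  have m1 : ∀ v, m v = s3 (s1 v - v) - (s1 v - v) := fun v => by rw [hm, map_sub, map_sub, c13]; abel
  have m2 : ∀ v, t (m v) = m v := fun v => by
    have k1 : m v = t (s1 (t (t (s1 v - v))) - t (t (s1 v - v))) := by rw [map_sub t, ← e3, ht, m1]
    have k2 := b1 (m v - (s1 (t (t (s1 v - v))) - t (t (s1 v - v)))) ((Nr s1).sub_mem ⟨_, (hm v).symm⟩ ⟨_, rfl⟩)
      (by rw [map_sub p, k1, p2, sub_self])
    rw [sub_eq_zero] at k2
    exact (congrArg t k2).trans k1.symm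
  have m3 : ∀ x y, B (m x) y = B x (m y) := fun x y => by rw [hm, h1.adj, h3.adj, m1]
  have m4 : ∀ x y, B (m x) (t y) = B (m x) y := fun x y => by conv_lhs => rw [← m2, hti]
  have b2 : ∀ x ∈ (Nr s1).map p, ∀ y ∈ (Nr s1).map p, B x y = 0 := by
    rintro _ ⟨n, hn, rfl⟩ _ ⟨n', hn', rfl⟩
    have k0 := h1.perp_fix hn (fix_Nr h2 h1.sq hn')
    obtain ⟨v, rfl⟩ := mem_Nr.1 hn
    obtain ⟨w, rfl⟩ := mem_Nr.1 hn'
    have k1 : B (s1 v - v) (t (s1 w - w)) = B (m v) w := by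
      rw [map_sub t, ← e3, h1.adj, ← hm, ← m3, m4]
    have k2 : B (s1 v - v) (t (t (s1 w - w))) = B (m v) w := by
      rw [← hti, ht, map_sub t, ← e3, ← h1.adj, ← hm, m3, hB.symm, m4, m3 w v, hB.symm w]
    rw [p3 _ _ (p1 _), hp, map_add, map_add, k0, k1, k2]
    linear_combination B (m v) w * h2
  have b3 : (Nr s1).map p ⊔ Nr t ≤ B.orthogonal ((Nr s1).map p) := by
    refine sup_le (fun x hx y hy => b2 y hy x hx) ?_
    rintro _ ⟨x, rfl⟩ _ ⟨n, -, rfl⟩
    show B (p n) (t x - x) = 0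
    rw [map_sub, ← p1, hti, p1, sub_self]
  have b4 := Submodule.finrank_mono b3
  rw [dim_sup (by
    rintro _ ⟨n, -, rfl⟩ ⟨x, hx⟩
    have k1 : p (p n) = p n := by rw [hp (p n), p1, p1, two_v h2, zero_add]
    have k2 : t x - x = p n := hx
    rw [← k1, ← k2, map_sub, p2, sub_self])] at b4
  have b5 := hB.perp ((Nr s1).map p)
  have b6 := Nr_add_Fk t
  omega

end Cfsg.Agent.E82.O8
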