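import Cfsg.Agent.E82.O8.Rows
import Cfsg.Agent.E82.Fr.A8
import Cfsg.Agent.E82.Fr.T8
import Cfsg.Agent.E82.Mach.E2
import Cfsg.Agent.E82.Mach.C3Chk

/-!
# S3369, the row `Ω₈⁺(2)` (helper94)

* `fixd` : the image of `Ω₈⁺(2)` in `E₈(2)` fixes a non-zero vector;
* `rowO8` : the row.
-/

set_option autoImplicit false
set_option maxRecDepth 100000

namespace Cfsg.Agent.E82.O8

open Module
open Cfsg.Agent.H939.L64 (KK E2 LK L2 rE rE_mul rE_one up)
open Cfsg.Agent.E82.Mach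

section grp

variable {G : Type} [Group G] {ok : List ℕ → List ℕ → Bool} {σ : ℕ → G} (h : Sd ok σ)

include h

theorem Sd.ginv {a : List ℕ} (k : ok (a ++ (a ++ a)) [] = true) : (pw σ a)⁻¹ = pw σ (a ++ a) :=
  inv_eq_of_mul_eq_one_right ((pw_append σ a _).symm.trans (h _ _ k))

theorem Sd.gconj {c a b : List ℕ} (k : ok (c ++ a) (b ++ c) = true) : pw σ c * pw σ a * (pw σ c)⁻¹ = pw σ b := by
  rw [← pw_append, h _ _ k, pw_append, mul_inv_cancel_right]

end grp

variable {g : ℕ → E2}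

theorem quad (h : Sd okS g) : Fr.Quad (fun i : Fin 4 => pw g [i]) (dz g [[0]]) (dz g [[9]]) :=
  ⟨fun i => h.cube (by revert i; decide +kernel), fun i j => h.comm (by revert i j; decide +kernel),
    fun i => cA h _ (by revert i; decide), fun i j hij => by rw [← pw_append]; exact cE h _ (by revert i j; decide),
    fun i j hij => by
      rw [h.ginv (by clear hij; revert j; decide +kernel), ← pw_append]
      exact cE h _ (by revert i j; decide)⟩

/-- **the type 80** -/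
theorem a8 (h : Sd okS g) (hA : dz g [[0]] = 80) (hE : dz g [[9]] = 92) : ∃ v, v ≠ 0 ∧ v ∈ Fz g GEN := by
  have q := (quad h).trip
  rw [hA, hE] at q
  have c : ∀ i : Fin 3, okS ([i.val] ++ ([i.val] ++ [i.val])) [] = true := by decide +kernel
  obtain ⟨y, hy, h1, h2⟩ := Fr.lemmaA8 (c := fun i : Fin 3 => pw g [i]) q (r := fun i => pw g [32 + i])
    (fun i => by rw [← pw_append]; exact h _ [] (by revert i; decide +kernel))
    (fun i => by rw [h.ginv (c i)]; exact h.gconj (by revert i; decide +kernel))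
    fun i j hij => h.comm (by revert i j; decide +kernel)
  have k : ∀ w ∈ A8, ∃ i : Fin 3, w = [i.val] ∨ (okS (w ++ [32 + i.val]) ([32 + i.val] ++ w) = true ∧
      okS (w ++ [i.val]) (([i.val] ++ [i.val]) ++ w) = true) := by decide +kernel
  refine ⟨y, hy, l9 h fun w hw => ?_⟩
  obtain ⟨i, rfl | ⟨k1, k2⟩⟩ := k w hw
  · exact h1 i
  · exact h2 i _ (h.comm k1) (Or.inr (by rw [h.ginv (c i)]; exact h.gconj k2))

theorem ex_B : exOk (okG 8 GB) C3.ty C3.ex = true := by decide +kernel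

theorem gen_B : genOk (okG 8 GB) 12 C3.C C3.ws = true := by decide +kernel

theorem chk_B : C3.C.chk (okG 8 GB) = true := by decide +kernel

theorem tab_B : Tab (okG 8 GB) 12 248 C3.C 8 (fun J k => (C3.rows.getD J []).getD (min k C3.C.cl.length) 0)
    fun J => C3.zs.getD J 0 := by
  refine tab_of ex_B fun J hJ => ?_
  have h : J < 8 := hJ
  interval_cases J
  exacts [C3.ent0, C3.ent1, C3.ent2, C3.ent3, C3.ent4, C3.ent5, C3.ent6, C3.ent7]

theorem pw_sh (w : List ℕ) : pw (fun j => g (20 + j)) w = pw g (w.map (20 + ·)) := by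
  rw [pw, pw, List.map_map]; rfl

theorem sp_num (m : ℕ → ℕ) {F : ℕ → ℕ} (h : ∀ k, F k = ∑ J ∈ Finset.range 8, m J * (C3.rows.getD J []).getD (min k C3.C.cl.length) 0)
    (h0 : F 0 = 92) (h3 : F 3 = 80) (h9 : F 9 = 86) (h10 : F 10 = 28 ∨ F 10 = 48 ∨ F 10 = 34 ∨ F 10 = 30) (h13 : F 13 = 248)
    (h11 : F 11 ≤ ∑ J ∈ Finset.range 8, m J * C3.zs.getD J 0) : False := by
  have e0 : F 0 = m 0 * 1 + m 1 * 4 + m 2 * 6 + m 3 * 24 + m 4 * 0 + m 5 * 8 + m 6 * 32 + m 7 * 0 := by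
    rw [h]; simp only [Finset.sum_range_succ, Finset.sum_range_zero, zero_add]; rfl
  have e3 : F 3 = m 0 * 1 + m 1 * 2 + m 2 * 4 + m 3 * 20 + m 4 * 4 + m 5 * 16 + m 6 * 36 + m 7 * 0 := by
    rw [h]; simp only [Finset.sum_range_succ, Finset.sum_range_zero, zero_add]; rfl
  have e9 : F 9 = m 0 * 1 + m 1 * 0 + m 2 * 8 + m 3 * 16 + m 4 * 2 + m 5 * 18 + m 6 * 34 + m 7 * 0 := by
    rw [h]; simp only [Finset.sum_range_succ, Finset.sum_range_zero, zero_add]; rfl
  have e10 : F 10 = m 0 * 1 + m 1 * 0 + m 2 * 2 + m 3 * 6 + m 4 * 0 + m 5 * 6 + m 6 * 12 + m 7 * 0 := by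
    rw [h]; simp only [Finset.sum_range_succ, Finset.sum_range_zero, zero_add]; rfl
  have e11 : F 11 = m 0 * 1 + m 1 * 0 + m 2 * 2 + m 3 * 10 + m 4 * 2 + m 5 * 6 + m 6 * 16 + m 7 * 0 := by
    rw [h]; simp only [Finset.sum_range_succ, Finset.sum_range_zero, zero_add]; rfl
  have e13 : F 13 = m 0 * 1 + m 1 * 6 + m 2 * 14 + m 3 * 64 + m 4 * 8 + m 5 * 48 + m 6 * 112 + m 7 * 0 := by
    rw [h]; simp only [Finset.sum_range_succ, Finset.sum_range_zero, zero_add]; rfl
  have ez : ∑ J ∈ Finset.range 8, m J * C3.zs.getD J 0 =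
      m 0 * 0 + m 1 * 1 + m 2 * 2 + m 3 * 10 + m 4 * 2 + m 5 * 7 + m 6 * 16 + m 7 * 0 := by
    simp only [Finset.sum_range_succ, Finset.sum_range_zero, zero_add]; rfl
  omega

/-- **the case of the symplectic group** -/
theorem row5 (h : Sd okS g) (hB : Sd (okG 8 GB) fun j => g (20 + j)) (hA : dz g [[0]] = 92) (hE : dz g [[9]] = 80)
    (hD : dz g [[10]] = 86) (hQ : dz g Q3 ≤ dz g R4) : ∃ v, v ≠ 0 ∧ v ∈ Fz g GEN := by
  have ha : Good (okG 8 GB) 12 (opE (MonoidHom.id E2) (fun j => g (20 + j)) 12) := by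
    refine ⟨fun w w' e => ?_, fun j hj => if_neg (not_lt.2 hj)⟩
    have e1 := hB w w' e
    rw [okG, Bool.and_eq_true, Bool.and_eq_true, show GB.length = 12 from rfl] at e
    rw [opE, wd_opR _ _ (inR_lt e.1.1), wd_opR _ _ (inR_lt e.1.2), e1]
  have hR : C3.C.inR 12 = true := by decide +kernel
  obtain ⟨m, h1, h2⟩ := sol chk_B tab_B 248 L2 _ finrank_L2 le_rfl ha
  have h3 : ∀ k, C3.C.f (opE (MonoidHom.id E2) (fun j => g (20 + j)) 12) k = dz g [(C3.C.cl.getD k ([], 1)).1.map (20 + ·)] :=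
    fun k => by rw [Cls.f, cf_wd _ _ (C3.C.cl_lt hR k), MonoidHom.id_apply, pw_sh, dz_one]
  rcases press gen_B ha with ⟨w, hw, h4⟩ | h4
  · have h5 : up w ∈ Fz g BL := by
      have k : ∀ a ∈ BL, ∃ j < 12, a = [20 + j] := by decide
      intro a ha
      obtain ⟨j, hj, rfl⟩ := k a ha
      have e := h4 j hj
      rw [opE_apply _ _ hj, MonoidHom.id_apply] at e
      rw [pw_single, ← up_act, e]
    exact ⟨up w, up_ne_zero hw, l12 h (Fz_mk (Fz_eq (l10 h) hQ (l11 h h5) [3] (by decide)) h5)⟩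
  · have b := (b9 h).trans hD
    have h6 := h.nine (a := [31, 24, 23, 30, 29]) (w := [31, 24, 23, 30, 29, 31, 24, 23, 30, 29, 31, 24, 23, 30, 29])
      (by decide +kernel) (by decide +kernel) fun e => by rw [dz_one, e, fd_one] at b; omega
    exact (sp_num m h1 ((h3 0).trans ((b0 h).trans hA)) ((h3 3).trans ((b3 h).trans hE)) ((h3 9).trans b)
      (by rw [h3]; exact h6.2) ((h3 13).trans ((dz_one _).trans fd_one)) (h4.trans h2)).elim

/-! ### the group -/

/-- the letters in the group -/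
def sl (j : ℕ) : D4 := pw x0 (dw j)

theorem sd_sl : Sd okS sl := sd_sub sub_GG

section

variable {f : D4 →* E2} (hg : ∀ j < 38, g j = f (sl j))

include hg

theorem sd_of : Sd okS g := (sd_sl.hom f).congr hg

theorem sd_B : Sd (okG 8 GB) fun j => g (20 + j) := ((sd_sub sub_GB).hom f).congr fun j hj => hg _ (by
  have e : j < 12 := hj
  omega)

theorem ne_of (hf : Function.Injective f) : g 4 ≠ 1 := fun e => x0_ne (hf (by
  rw [hg 4 (by decide)] at e
  rw [map_one, ← e, sl, show dw 4 = [18] from rfl, pw_single]))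

theorem fix_of {v : LK} (hv : v ∈ Fz g GEN) (s : D4) : rE (f s) v = v := by
  have k : ∀ r ∈ [18, 14, 13, 12, 5, 9, 10, 11], ∃ j < 38, [j] ∈ GEN ∧ dw j = [r] := by decide +kernel
  have e := top_of ((stabV v).comap f) fun r hr => by
    obtain ⟨j, h1, h2, h3⟩ := k r hr
    have e1 := hv _ h2
    rwa [pw_single, hg j h1, sl, h3, pw_single] at e1
  exact (e ▸ Subgroup.mem_top s : s ∈ (stabV v).comap f)

end

/-- the letters in `E₈(2)` -/
def gl (f : D4 →* E2) (j : ℕ) : E2 := f (sl j)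

theorem gl_eq (f : D4 →* E2) : ∀ j < 38, gl f j = f (sl j) := fun _ _ => rfl

/-- the twisted embedding -/
noncomputable def tw (f : D4 →* E2) : D4 →* E2 := f.comp gam.toMonoidHom

theorem tw_apply (f : D4 →* E2) (s : D4) : tw f s = f (gam s) := rfl

theorem tw_dz (f : D4 →* E2) {i j : ℕ} {e : EC} (k : eqOk (okG 8 G24) [(dw i).map tr] [dw j] e = true) :
    dz (gl (tw f)) [[i]] = dz (gl f) [[j]] := by
  have e1 := (sd_24.hom f).cfq k
  rw [dz_one, pw_hom, pw_hom, ← gam_pw] at e1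
  rw [dz_one, dz_one, pw_single, pw_single, gl, gl, tw_apply]
  exact e1

theorem tw_fix {f : D4 →* E2} (h : Fixd (tw f)) : Fixd f := by
  obtain ⟨v, hv, h1⟩ := h
  refine ⟨v, hv, fun s => ?_⟩
  have e := h1 (gam.symm s)
  rwa [tw_apply, MulEquiv.apply_symm_apply] at e

theorem fixd_of {f : D4 →* E2} (h : ∃ v, v ≠ 0 ∧ v ∈ Fz (gl f) GEN) : Fixd f :=
  h.imp fun _ hv => ⟨hv.1, fix_of (gl_eq f) hv.2⟩

/-- **there is a fixed vector** -/
theorem fixd {f : D4 →* E2} (hf : Function.Injective f) : Fixd f := by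
  have h := sd_of (gl_eq f)
  obtain ⟨hD, ht⟩ := types h (ne_of (gl_eq f) hf)
  obtain ⟨a1, a2, a3, a4, a5, a6⟩ := dims h hD
  rcases ht with ⟨hA, hB, hC, hE | hE⟩ | ⟨hE, hA | hA, hB | hB, hC | hC⟩
  · obtain ⟨v, h1, -, h2⟩ := row1 h a1 (by omega) (by omega) le_rfl (by rw [← dz, dV h a1 (by omega)]; omega)
    exact fixd_of ⟨v, h1, h2⟩
  · exact fixd_of (row5 h (sd_B (gl_eq f)) hA hE hD (by omega))
  · exact fixd_of (row2 h a1 (by omega) (by omega))
  · exact tw_fix (fixd_of (a8 (sd_of (gl_eq _)) ((tw_dz f gA).trans hC) ((tw_dz f gE).trans hE)))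
  · exact tw_fix (tw_fix (fixd_of (a8 (sd_of (gl_eq _)) ((tw_dz _ gA).trans ((tw_dz f gC).trans hB))
      ((tw_dz _ gE).trans ((tw_dz f gE).trans hE)))))
  · exact tw_fix (fixd_of (a8 (sd_of (gl_eq _)) ((tw_dz f gA).trans hC) ((tw_dz f gE).trans hE)))
  all_goals exact fixd_of (a8 h hA hE)

theorem not_dvd : ¬ 3 ^ 8 ∣ Nat.card (MulAut D4) := by
  rw [aut_D4, card_D4]
  norm_num

theorem rowD4 : ROW D4 := by
  intro f H hS
  have hfx := fixd hS.inj
  rcases tri_cases hS with h0 | ⟨t, h3, ht, hv⟩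
  · exact h0 hfx
  obtain ⟨g, hg0⟩ : ∃ g : ℕ → E2, g = fun j => if j = 99 then t else f (pw x0 (dw j)) := ⟨_, rfl⟩
  have k : Sd okU g := hg0 ▸ sd_K dw f h3 ht
  have hg : ∀ j < 38, g j = f (sl j) := fun j hj => by rw [hg0]; exact if_neg (by omega)
  have g9 : pw g [99] = t := by rw [pw_single, hg0]; exact if_pos rfl
  have h := sd_of hg
  obtain ⟨hD, hty⟩ := types h (ne_of hg hS.inj)
  obtain ⟨a1, a2, a3, a4, a5, a6⟩ := dims h hD
  have b1 := tB k
  have b2 := tC k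
  have fin : (∃ v, v ≠ 0 ∧ v ∈ Fz g GEN ∧ rE (pw g [99]) v = v) → False := fun ⟨v, h1, h2, h4⟩ =>
    hv v h1 (fix_of hg h2) (g9 ▸ h4)
  have hp : ∀ w : List ℕ, (∀ j ∈ w, j < 38) → f (pw sl w) = pw g w := fun w hw => by
    rw [← pw_hom]
    exact congrArg List.prod (List.map_congr_left fun j hj => (hg j (hw j hj)).symm)
  have q : Fr.Quad (fun i : Fin 4 => f (pw sl [i])) (dz g [[0]]) (dz g [[9]]) := by
    have e : (fun i : Fin 4 => f (pw sl [i])) = fun i : Fin 4 => pw g [i] := funext fun i => hp _ (by revert i; decide)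
    rw [e]
    exact quad h
  rcases hty with ⟨hA, -, -, hE | hE⟩ | ⟨hE, hA | hA, -, -⟩
  · exact fin (row1t h a1 (by omega) k hD (by omega))
  · rw [hA, hE] at q
    exact not_dvd (hS.t8a hfx (y := fun i => pw sl [i]) q)
  · exact fin (row2t h a1 (by omega) k hD (by omega) (by omega) hE)
  · rw [hA, hE] at q
    have c : ∀ i : Fin 4, (pw sl [i.val])⁻¹ = pw sl ([i.val] ++ [i.val]) := fun i => sd_sl.ginv (by revert i; decide +kernel)
    refine not_dvd (hS.t8b hfx (y := fun i => pw sl [i]) q (fun a b d ha hb hd => ?_) (g := pw sl [4, 5, 4, 6, 5, 7, 5, 4, 6, 5])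
      (by rw [c]; exact sd_sl.gconj (by decide +kernel)) (by rw [c]; exact sd_sl.gconj (by decide +kernel))
      (sd_sl.gconj (by decide +kernel)))
    rw [c] at ha hb hd
    rcases ha with rfl | rfl <;> rcases hb with rfl | rfl <;> rcases hd with rfl | rfl <;>
      rw [← pw_append, ← pw_append, ← pw_append, hp _ (by decide)] <;>
      first
      | exact (cB h _ (by decide)).trans (b1.trans hA)
      | exact (cC h _ (by decide)).trans (b2.trans hA)

end Cfsg.Agent.E82.O8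

namespace Cfsg.Agent.E82

/-- **the row `Ω₈⁺(2)`** -/
theorem rowO8 : ROW O8 := O8.exists_iso.elim fun e => O8.sub_row e O8.rowD4

end Cfsg.Agent.E82
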