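import Cfsg.Agent.E82.O8.Cnt
import Cfsg.Agent.E82.End
import Cfsg.Agent.E82.Small
import Cfsg.Agent.ChevalleyStructure.OrthD4Tab
import Cfsg.Agent.H79.GraphD4
import Cfsg.Agent.H857.OE8.Om
import Cfsg.Agent.S2156

/-!
# S3369, the row `Ω₈⁺(2)`: the model `D₄(2)`, words in the root elements, the triality (helper94)
-/

set_option autoImplicit false
set_option maxRecDepth 100000

namespace Cfsg.Agent.E82.O8

open Module Cfsg Cfsg.Lie Matrix
open Cfsg.Agent.H939.L64 (KK E2 LK rE rE_mul)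
open Cfsg.Agent.E82.Mach
open Cfsg.Agent.ChevalleyStructure Cfsg.Agent.H79.SimpleGen Cfsg.Agent.H79.GraphD4
open Cfsg.Agent.ChevalleyStructure.OrthLie Cfsg.Agent.ChevalleyStructure.OrthHyp
open Cfsg.Agent.ChevalleyStructure.OrthD4Def (tab)

/-- the model -/
abbrev D4 : Type := ↥(chevD4.group (ZMod 2))

/-- the root elements -/
def x0 (r : ℕ) : D4 := xS memD4 r 1

/-- the root elements in the natural module -/
noncomputable def v0 (r : ℕ) : GL (Fin 4 ⊕ Fin 4) (ZMod 2) :=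
  if h : r < chevD4.nroots then Tab.rootV (OrthD4Tab.compat (ZMod 2)) ⟨r, h⟩ 1 else 1

theorem rel0 (w : List ℕ) : tab.Rel (plusForm 4 (ZMod 2)) (pw v0 w)
    (((pw x0 w : D4) : GL chevD4.Idx (ZMod 2)) : Matrix chevD4.Idx chevD4.Idx (ZMod 2)) := by
  induction w with
  | nil => exact Tab.Rel.one
  | cons r w ih =>
    rw [pw_cons, pw_cons, Subgroup.coe_mul, Units.val_mul]
    refine Tab.Rel.mul ?_ ih
    rw [x0, mat_xS, v0]
    by_cases h : r < chevD4.nroots
    · rw [dif_pos h, Elts.x_of_lt h]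
      exact Tab.rel_rootV _ OrthD4Tab.ok _ _
    · rw [dif_neg h, Elts.x_of_not_lt h]
      exact Tab.Rel.one

theorem x0_eq {w w' : List ℕ} (h : pw v0 w = pw v0 w') : pw x0 w = pw x0 w' :=
  Subtype.ext (Units.ext (Tab.Rel.unique (OrthD4Tab.compat (ZMod 2)) OrthD4Tab.span (h ▸ rel0 w) (rel0 w')))

/-- the natural module -/
noncomputable def rho8 : GL (Fin 4 ⊕ Fin 4) (ZMod 2) →* End F2 (X 8) where
  toFun A := Matrix.toLin' (Matrix.reindex finSumFinEquiv finSumFinEquiv (A : Matrix (Fin 4 ⊕ Fin 4) (Fin 4 ⊕ Fin 4) (ZMod 2)))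
  map_one' := by rw [Units.val_one, Matrix.reindex_apply, Matrix.submatrix_one_equiv, Matrix.toLin'_one]; rfl
  map_mul' A B := by
    rw [Units.val_mul, Matrix.reindex_apply, Matrix.reindex_apply, Matrix.reindex_apply, ← Matrix.submatrix_mul_equiv _ _ _
      finSumFinEquiv.symm, Matrix.toLin'_mul]
    rfl

theorem rho8_inj : Function.Injective rho8 := fun _ _ h =>
  Units.ext ((Matrix.reindex finSumFinEquiv finSumFinEquiv).injective (Matrix.toLin'.injective h))

/-- the tables of the root elements -/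
def G24 : List (List (ℕ × ℕ)) :=
  [[(0, 5), (1, 4)], [(0, 6), (2, 4)], [(0, 3), (7, 4)], [(0, 7), (3, 4)], [(0, 2), (6, 4)], [(0, 1), (5, 4)], [(1, 6),
  (2, 5)], [(1, 3), (7, 5)], [(1, 7), (3, 5)], [(1, 2), (6, 5)], [(2, 3), (7, 6)], [(2, 7), (3, 6)], [(6, 3), (7, 2)],
  [(3, 2), (6, 7)], [(2, 1), (5, 6)], [(5, 3), (7, 1)], [(3, 1), (5, 7)], [(5, 2), (6, 1)], [(1, 0), (4, 5)], [(2, 0),
  (4, 6)], [(4, 3), (7, 0)], [(3, 0), (4, 7)], [(4, 2), (6, 0)], [(4, 1), (5, 0)]]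

theorem G24_spec : ∀ (r : Fin chevD4.nroots) (i j : Fin 8), Tab.pvec (F := ZMod 2) (tab.tv r (finSumFinEquiv.symm i)) 1
    ((finSumFinEquiv (m := 4) (n := 4)).symm j) = bt (actJ G24 r (2 ^ (i : ℕ))) j := by decide +kernel

theorem nat24 : Nat0 8 G24 v0 rho8 := by
  have hw : wfG 8 G24 = true := by decide +kernel
  refine ⟨hw, rho8_inj, fun r hr => x_ext fun i => ?_⟩
  have h : r < chevD4.nroots := hr
  rw [← bv_two_pow, ← (actJ_spec hw r (sm_two_pow i.2)).2, bv_two_pow]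
  funext j
  have e := G24_spec ⟨r, h⟩ i j
  rw [← Tab.sgl_single (OrthD4Tab.compat (ZMod 2)), ← HypForm.sieg_act _ (HypForm.Q_single _ _ (Set.mem_univ _))
    (Tab.B_smul_single_rt (OrthD4Tab.compat (ZMod 2)) _ _), Matrix.mulVec_single_one] at e
  show (Matrix.reindex finSumFinEquiv finSumFinEquiv (v0 r : Matrix (Fin 4 ⊕ Fin 4) (Fin 4 ⊕ Fin 4) (ZMod 2)) *ᵥ
    Pi.single i 1) j = _
  rw [Matrix.mulVec_single_one, v0, dif_pos h]
  exact e

theorem pw_flat {S : Type} [Group S] (σ : ℕ → S) (dw : ℕ → List ℕ) (w : List ℕ) :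
    pw (fun j => pw σ (dw j)) w = pw σ (w.flatMap dw) := by
  induction w with
  | nil => rfl
  | cons j w ih => rw [pw_cons, List.flatMap_cons, pw_append, ih]

theorem pw_hom {S T : Type} [Group S] [Group T] (f : S →* T) (σ : ℕ → S) (w : List ℕ) :
    pw (fun j => f (σ j)) w = f (pw σ w) := by
  induction w with
  | nil => exact (map_one f).symm
  | cons j w ih => rw [pw_cons, pw_cons, map_mul, ih]

/-- the tables `G` are those of the words `dw` -/
noncomputable def subOk (G : List (List (ℕ × ℕ))) (dw : ℕ → List ℕ) : Bool :=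
  wfG 8 G && (List.range G.length).all fun j => inR 24 (dw j) && Nat.beq (evW 8 G [j]) (evW 8 G24 (dw j))

theorem sd_sub {G : List (List (ℕ × ℕ))} {dw : ℕ → List ℕ} (h : subOk G dw = true) :
    Sd (okG 8 G) fun j => pw x0 (dw j) := by
  simp only [subOk, Bool.and_eq_true, List.all_eq_true, List.mem_range, Nat.beq_eq] at h
  have h1 : Nat0 8 G (fun j => pw v0 (dw j)) rho8 := ⟨h.1, rho8_inj, fun j hj => by
    rw [nat24.wd (inR_lt (h.2 j hj).1), ← lin_evW nat24.wf, ← (h.2 j hj).2, lin_evW h.1, wd_single]⟩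
  intro w w' e
  have e1 := h1.pw_eq e
  rw [pw_flat, pw_flat] at e1 ⊢
  exact x0_eq e1

theorem sd_24 : Sd (okG 8 G24) x0 := fun _ _ e => x0_eq (nat24.pw_eq e)

theorem Sd.hom {S T : Type} [Group S] [Group T] {ok : List ℕ → List ℕ → Bool} {σ : ℕ → S} (h : Sd ok σ) (f : S →* T) :
    Sd ok fun j => f (σ j) := fun w w' e => by rw [pw_hom, pw_hom, h w w' e]

theorem Sd.congr {S : Type} [Group S] {G : List (List (ℕ × ℕ))} {σ τ : ℕ → S} (h : Sd (okG 8 G) σ)
    (e : ∀ j < G.length, τ j = σ j) : Sd (okG 8 G) τ := by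
  have key : ∀ w : List ℕ, (∀ j ∈ w, j < G.length) → pw τ w = pw σ w := fun w hw =>
    congrArg List.prod (List.map_congr_left fun j hj => e j (hw j hj))
  intro w w' k
  have k1 := h w w' k
  rw [okG, Bool.and_eq_true, Bool.and_eq_true] at k
  rw [key w (inR_lt k.1.1), key w' (inR_lt k.1.2), k1]

theorem x0_ne : x0 18 ≠ 1 := fun h =>
  one_ne_zero (xS_injective (F := ZMod 2) memD4 (r := 18) (by decide) (h.trans (xS_zero memD4 18).symm))

/-- a subgroup which contains the eight generators -/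
theorem top_of (K : Subgroup D4) (h : ∀ r ∈ [18, 14, 13, 12, 5, 9, 10, 11], x0 r ∈ K) : K = ⊤ := by
  have k : ∀ r ∈ [18, 14, 13, 12, 5, 9, 10, 11], ∀ t : ZMod 2, xS memD4 r t ∈ K := fun r hr t => by
    rcases f2_cases t with rfl | rfl
    · rw [xS_zero]; exact K.one_mem
    · exact h r hr
  exact eq_top_of_simple memD4 K (fun i hi => k _ (by revert i; decide)) fun i hi => k _ (by revert i; decide)

/-! ### the triality -/

/-- the triality -/
noncomputable def gam : MulAut D4 := gammaD4 (ZMod 2) H79.OutAbs.c3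

/-- the permutation of the roots -/
def tr (r : ℕ) : ℕ := [0, 1, 6, 2, 7, 10, 3, 8, 4, 9, 11, 5, 18, 12, 14, 19, 15, 20, 13, 16, 21, 17, 22, 23].getD r r

theorem gam_x0 (r : ℕ) : gam (x0 r) = x0 (tr r) := by
  have e : gam = GraphSymm.symmD4a.aut (ZMod 2) :=
    (gammaD4_spec _ _).unique (isG_of_symm GraphSymm.symmD4a _ _ extD4_c3 S1081.specD4a)
  by_cases h : r < chevD4.nroots
  · have k : ∀ r : Fin chevD4.nroots, (GraphSymm.symmD4a.σ r).val = tr r ∧ ((GraphSymm.symmD4a.ε r : ℤ) : ZMod 2) = 1 := by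
      decide +kernel
    have e1 := GraphSymm.symmD4a.aut_x (ZMod 2) (x0 r) ⟨r, h⟩ 1 rfl
    rw [(k _).1, (k _).2, one_mul] at e1
    rw [e]
    exact (eq_xS_iff memD4 _ _ _).2 e1
  · have e1 : x0 r = 1 := Subtype.ext (Units.ext (Elts.x_of_not_lt h 1))
    have e2 : tr r = r := List.getD_eq_default _ _ (not_lt.1 h)
    rw [e2, e1, map_one]

theorem gam_pw (w : List ℕ) : gam (pw x0 w) = pw x0 (w.map tr) := by
  induction w with
  | nil => exact map_one gam
  | cons j w ih => rw [List.map_cons, pw_cons, pw_cons, map_mul, ih, gam_x0]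

theorem fld_id {F : Type} [Field F] {D : ChevalleyDatum} (hD : Elts.InList D) {f : ↥(D.group F) ≃* ↥(D.group F)}
    (hf : D.IsFieldAut f) (h : ∀ (σ : F ≃+* F) t, σ t = t) (y : ↥(D.group F)) : f y = y := by
  obtain ⟨σ, hf⟩ := hf
  have e : f = MulEquiv.refl _ :=
    equiv_ext hD _ _ (fun i hi t => by rw [field_apply hD hf (simple_lt hD hi), h, MulEquiv.refl_apply])
      fun i hi t => by rw [field_apply hD hf (neg_simple_lt hD hi), h, MulEquiv.refl_apply]
  rw [e, MulEquiv.refl_apply]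

theorem aut_fac (θ : D4 ≃* D4) : ∃ (s : D4) (τ : Equiv.Perm (Fin 3)), ∀ y, θ y = s * gammaD4 (ZMod 2) τ y * s⁻¹ := by
  obtain ⟨s, d, g, f, ⟨χ, -, hd⟩, hg, hf, h⟩ := S2156.result chevD4 (by simp) θ
  obtain ⟨τ, rfl⟩ := exists_gamma_eq hg
  have e1 : ∀ y, d y = y := fun y => by
    have k : ∀ ψ : ℕ → (ZMod 2)ˣ, chevD4.charDiag (ZMod 2) ψ = 1 := fun ψ => by
      rw [ChevalleyDatum.charDiag, ← Matrix.diagonal_one]
      congr 1
      funext i
      rcases i with i | i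
      · rfl
      · exact congrArg Units.val (Subsingleton.elim (ψ i) 1)
    refine Subtype.ext (Units.ext ?_)
    rw [hd, k, k, one_mul, mul_one]
  have e2 : ∀ y, f y = y := fld_id memD4 hf fun σ t => by
    rcases f2_cases t with rfl | rfl
    · exact map_zero σ
    · exact map_one σ
  exact ⟨s, τ, fun y => by rw [h, e1, e2]⟩

section sub

variable {G G' : Type} [Group G] [Group G'] {H : Subgroup G} {K : Subgroup G'}

theorem sub_simple (e : H ≃* K) (h : IsSimpleGroup K) : IsSimpleGroup H := e.isSimpleGroup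

theorem sub_aut (e : H ≃* K) : Nat.card (MulAut H) = Nat.card (MulAut K) := card_aut_congr e

theorem sub_row (e : H ≃* K) (h : ROW H) : ROW K := ROW.of_equiv e h

end sub

theorem two_zero : (2 : ZMod 2) = 0 := rfl

theorem exists_iso : Nonempty (D4 ≃* O8) := H857.OE8.d4_omega two_zero

theorem aut_D4 : Nat.card (MulAut D4) = Nat.card D4 * 6 := by
  obtain ⟨e⟩ := exists_iso
  rw [sub_aut e, Nat.card_congr e.toEquiv, aut_O8]

theorem card_D4 : Nat.card D4 = 174182400 := by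
  obtain ⟨e⟩ := exists_iso
  rw [Nat.card_congr e.toEquiv, card_O8]

theorem small_D4 : Small D4 := by
  obtain ⟨e⟩ := exists_iso
  exact small_of (sub_simple e simple_O8) card_D4 aut_D4 (by norm_num) (by norm_num) (by norm_num) (by norm_num) (by norm_num)

/-- **the socle has index at most two, or there is a triality** -/
theorem tri_cases {f : D4 →* E2} {H : Subgroup E2} (hS : Sit f H) : (Fixd f → False) ∨ ∃ t : E2, t ^ 3 = 1 ∧
    (∀ s, t * f s = f (gam s) * t) ∧ ∀ v : LK, v ≠ 0 → (∀ s, rE (f s) v = v) → rE t v = v → False := by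
  have hfin := finite_E2
  have hN := hS.soc_normal
  have hl : hS.soc.index ∣ 2 → Fixd f → False := fun h1 ⟨v, hv, h2⟩ =>
    hS.end_norm small_D4 hS.soc hN (k := 1) h1 hv fun g hg => by
      obtain ⟨s, h3⟩ := hS.mem_soc.1 hg
      rw [← h3, h2]
  rcases exists_three hS.soc (hS.index_soc small_D4 aut_D4) with h1 | ⟨t0, K, h1, h2, h3, h4⟩
  · exact Or.inl (hl h1)
  obtain ⟨θ, hθ⟩ := hS.nor t0 t0.2
  obtain ⟨s, τ, hτ⟩ := aut_fac θ
  obtain ⟨t, ht⟩ : ∃ t : E2, t = (f s)⁻¹ * t0 := ⟨_, rfl⟩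
  have a0 : (t0 : E2) = f s * t := by rw [ht, mul_inv_cancel_left]
  have a1 : t ∈ H := ht ▸ H.mul_mem (H.inv_mem (hS.le s)) t0.2
  have a2 : ∀ y, t * f y = f (gammaD4 (ZMod 2) τ y) * t := fun y => by
    have k := hθ y
    rw [hτ, map_mul, map_mul, map_inv, a0] at k
    calc t * f y = (f s)⁻¹ * (f s * t * f y * (f s * t)⁻¹) * (f s * t) := by group
      _ = _ := by rw [← k]; group
  have a3 : ∀ (n : ℕ) y, t ^ n * f y = f (gammaD4 (ZMod 2) (τ ^ n) y) * t ^ n := fun n => by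
    induction n with
    | zero => intro y; rw [pow_zero, pow_zero, map_one, one_mul, mul_one]; rfl
    | succ n ih => intro y; rw [pow_succ, mul_assoc, a2, ← mul_assoc, ih, mul_assoc, pow_succ τ, map_mul (gammaD4 _)]; rfl
  have a4 : ∀ n : ℕ, τ ^ n = 1 → t ^ n = 1 := fun n hn => hS.tri _ (H.pow_mem a1 n) fun y => by
    have k := a3 n y
    rwa [hn, map_one] at k
  have a5 : ∀ v : LK, v ≠ 0 → (∀ s, rE (f s) v = v) → rE t v = v → False := fun v hv k1 k2 =>
    hS.end_norm small_D4 K h2 (k := 1) h3 hv fun g hg => by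
      obtain ⟨n, s', hs', rfl⟩ := h4 g hg
      obtain ⟨y, hy⟩ := hS.mem_soc.1 hs'
      have k3 : (t0 : E2) ^ n ∈ stabV v := (stabV v).pow_mem (by rw [mem_stabV, a0, rE_mul, k2, k1]) n
      rw [Subgroup.coe_mul, rE_mul, Subgroup.coe_pow, mem_stabV.1 k3, ← hy, k1]
  have hc : ∀ τ : Equiv.Perm (Fin 3), τ ^ 2 = 1 ∨ (τ ^ 3 = 1 ∧ (τ = H79.OutAbs.c3 ∨ τ ^ 2 = H79.OutAbs.c3)) := by decide
  rcases hc τ with k | ⟨k, k1 | k1⟩
  · refine Or.inl (hl (dvd_trans (Subgroup.index_dvd_of_le ?_) h3))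
    have k2 : (QuotientGroup.mk t0 : ↥H ⧸ hS.soc) = QuotientGroup.mk ⟨t, a1⟩ := by
      rw [eq_comm, QuotientGroup.eq_iff_div_mem]
      exact hS.mem_soc.2 ⟨s⁻¹, by
        show _ = t * (t0 : E2)⁻¹
        rw [a0, map_inv]; group⟩
    have k3 : (QuotientGroup.mk t0 : ↥H ⧸ hS.soc) ^ 2 = 1 := by
      rw [k2, ← QuotientGroup.mk_pow, show (⟨t, a1⟩ : ↥H) ^ 2 = 1 from Subtype.ext (a4 2 k), QuotientGroup.mk_one]
    have k4 : (QuotientGroup.mk t0 : ↥H ⧸ hS.soc) ^ 3 = 1 := by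
      rw [← QuotientGroup.mk_pow, QuotientGroup.eq_one_iff]; exact h1
    rw [pow_succ, k3, one_mul, QuotientGroup.eq_one_iff] at k4
    intro g hg
    obtain ⟨n, s', hs', rfl⟩ := h4 g hg
    exact hS.soc.mul_mem hs' (hS.soc.pow_mem k4 n)
  · exact Or.inr ⟨t, a4 3 k, fun y => by rw [a2, k1]; rfl, a5⟩
  · refine Or.inr ⟨t ^ 2, by rw [← pow_mul, mul_comm, pow_mul, a4 3 k, one_pow], fun y => by rw [a3, k1]; rfl,
      fun v hv k2 k3 => a5 v hv k2 ?_⟩
    have k4 : t = t ^ 2 * t ^ 2 := by rw [← pow_add, show 2 + 2 = 3 + 1 from rfl, pow_succ, a4 3 k, one_mul]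
    rw [k4, rE_mul, k3, k3]

/-- the normal form of a word with the letter `99` for the triality -/
noncomputable def nf (dw : ℕ → List ℕ) (w : List ℕ) : List ℕ × ℕ :=
  List.rec (motive := fun _ => List ℕ × ℕ) ([], 0)
    (fun j _ ih => cond (Nat.beq j 99) (ih.1.map tr, ih.2 + 1) (dw j ++ ih.1, ih.2)) w

/-- the oracle with the triality -/
noncomputable def okK (dw : ℕ → List ℕ) (w w' : List ℕ) : Bool :=
  okG 8 G24 (nf dw w).1 (nf dw w').1 && Nat.beq ((nf dw w).2 % 3) ((nf dw w').2 % 3)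

theorem sd_K (dw : ℕ → List ℕ) (f : D4 →* E2) {t : E2} (h3 : t ^ 3 = 1) (h : ∀ s, t * f s = f (gam s) * t) :
    Sd (okK dw) fun j => if j = 99 then t else f (pw x0 (dw j)) := by
  have key : ∀ w, pw (fun j => if j = 99 then t else f (pw x0 (dw j))) w = f (pw x0 (nf dw w).1) * t ^ (nf dw w).2 := by
    intro w
    induction w with
    | nil => exact ((mul_one _).trans (map_one f)).symm
    | cons j w ih =>
      have e : nf dw (j :: w) = cond (Nat.beq j 99) ((nf dw w).1.map tr, (nf dw w).2 + 1) (dw j ++ (nf dw w).1, (nf dw w).2) :=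
        rfl
      rw [pw_cons, ih, e]
      by_cases hj : j = 99
      · rw [if_pos hj, hj, Nat.beq_refl, cond_true, ← mul_assoc, h, gam_pw, mul_assoc, ← pow_succ']
      · rw [if_neg hj, Bool.eq_false_iff.2 fun k => hj (Nat.eq_of_beq_eq_true k), cond_false, pw_append, map_mul, mul_assoc]
  intro w w' e
  rw [okK, Bool.and_eq_true] at e
  rw [key, key, sd_24 _ _ e.1, pow_eq_pow_mod _ h3, Nat.eq_of_beq_eq_true e.2, ← pow_eq_pow_mod _ h3]

end Cfsg.Agent.E82.O8
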