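import Cfsg.Agent.E82.O8.DatT

/-!
# S3369, the row `Ω₈⁺(2)`: the types, the two cases with a large fixed space (helper94)
-/

set_option autoImplicit false
set_option maxRecDepth 100000

namespace Cfsg.Agent.E82.O8

open Module
open Cfsg.Agent.H175.LD (Fk mem_Fk)
open Cfsg.Agent.H939.L64 (KK E2 LK rE rE_mul rE_one)
open Cfsg.Agent.E82.Mach

theorem types_num : ∀ A ∈ [134, 92, 86, 80], ∀ B ∈ [134, 92, 86, 80], ∀ C ∈ [134, 92, 86, 80], ∀ E ∈ [134, 92, 86, 80],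
    qe E + qe E = 2 * (qe A + qe A) → qe E + qe E = 2 * (qe B + qe B) → qe B + qe C = 2 * (qe 86 + qe A) →
    (A = 86 ∧ B = 86 ∧ C = 86 ∧ E = 86) ∨ (A = 92 ∧ B = 92 ∧ C = 92 ∧ (E = 134 ∨ E = 80)) ∨
      (E = 92 ∧ (A = 134 ∨ A = 80) ∧ (B = 134 ∨ B = 80) ∧ (C = 134 ∨ C = 80)) := by decide +kernel

theorem tri_num : ∀ A ∈ [248, 134, 92, 86, 80], ∀ B ∈ [248, 134, 92, 86, 80], ∀ C ∈ [248, 134, 92, 86, 80],
    qe B + qe C = 2 * (qe A + qe 92) → 249 ≤ A + B + C := by decide +kernel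

theorem mem4 {n : ℕ} (h : n = 248 ∨ n = 134 ∨ n = 92 ∨ n = 86 ∨ n = 80) (h1 : n ≠ 248) : n ∈ [134, 92, 86, 80] := by
  simp only [List.mem_cons, List.not_mem_nil, or_false]
  omega

theorem mem5 {n : ℕ} (h : n = 248 ∨ n = 134 ∨ n = 92 ∨ n = 86 ∨ n = 80) : n ∈ [248, 134, 92, 86, 80] := by
  simp only [List.mem_cons, List.not_mem_nil, or_false]
  exact h

variable {g : ℕ → E2}

theorem Fz_nil (v : LK) : v ∈ Fz g [] := fun _ hw => absurd hw List.not_mem_nil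

variable (h : Sd okS g)

include h

/-- **the types** -/
theorem types (h0 : g 4 ≠ 1) : dz g [[10]] = 86 ∧
    ((dz g [[0]] = 92 ∧ dz g [[11]] = 92 ∧ dz g [[12]] = 92 ∧ (dz g [[9]] = 134 ∨ dz g [[9]] = 80)) ∨
      (dz g [[9]] = 92 ∧ (dz g [[0]] = 134 ∨ dz g [[0]] = 80) ∧ (dz g [[11]] = 134 ∨ dz g [[11]] = 80) ∧
        (dz g [[12]] = 134 ∨ dz g [[12]] = 80))) := by
  obtain ⟨hD, hX⟩ := h.nine (a := [0, 18]) (w := [10]) (by decide +kernel) (by decide +kernel)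
    (by rw [pw_single]; exact ne10 h h0)
  refine ⟨hD, (types_num _ (mem4 (h.val (by decide +kernel)) (dz_ne (ne0 h h0))) _
    (mem4 (h.val (by decide +kernel)) (dz_ne (ne11 h h0))) _ (mem4 (h.val (by decide +kernel)) (dz_ne (ne12 h h0))) _
    (mem4 (h.val (by decide +kernel)) (dz_ne (ne9 h h0))) (p1 h) (p2 h) (hD ▸ p3 h)).resolve_left ?_⟩
  rintro ⟨a1, a2, a3, a4⟩
  have e0 := dz_nil (g := g)
  have e1 := f1 h
  have e2 := f2 h
  have e3 := f3 h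
  have e4 := f4 h
  have e5 := f5 h
  have e7 := f7 h
  have e8 := f8 h
  have e9 := f9 h
  have e10 := f10 h
  omega

/-- the dimensions -/
theorem dims (hD : dz g [[10]] = 86) : dz g Z2 = 32 ∧ dz g Zb + 54 = dz g [[9]] ∧
    3 * dz g Zy + 162 = dz g [[0]] + dz g [[11]] + dz g [[12]] ∧ 3 * dz g U4 + 22 = dz g Zb + dz g Zy ∧
      3 * dz g Q3 + 86 = 4 * dz g Zb ∧ dz g Zy + 3 * dz g R4 = 4 * dz g U4 := by
  have e0 := dz_nil (g := g)
  have e1 := f1 h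
  have e2 := f2 h
  have e3 := f3 h
  have e4 := f4 h
  have e5 := f5 h
  have e6 := f6 h
  omega

section big

variable (hZ : dz g Z2 = 32) (hU : dz g U4 = 32)

include hZ hU

theorem u_le : Fz g U4 ≤ Fz g E4 := fun _ hv =>
  l3 h (Fz_app hv (Fz_eq (l2 h) (by rw [d1 h, hU, hZ]) (l1 h hv)))

theorem dV : dz g E4 = 32 := le_antisymm (hU ▸ dz_le (l4 h)) (hU ▸ dz_le (u_le h hZ hU))

theorem y_le : Fz g R4 ≤ Fz g E4 := (l5 h).trans (u_le h hZ hU)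

theorem y_pl : Fz g R4 ≤ Fz g PL := fun v hv => by
  have a1 : rE (pw g [0]) v = v := y_le h hZ hU hv [0] (by decide)
  have a2 := y_le h hZ hU (h.map_mem mu hv) [0] (by decide)
  have a3 : rE (pw g ([8] ++ ([0] ++ [8, 8, 8]))) v = v := by
    rw [rE_app, rE_app, a2, ← rE_app, h _ [] (by decide +kernel), pw_nil, rE_one]
  exact Fz_app hv (Fz_mk a1 (Fz_mk a3 (Fz_nil v)))

theorem y_gen {v : LK} (hv : v ∈ Fz g R4) (h6 : rE (pw g [6]) v = v) (h7 : rE (pw g [7]) v = v) : v ∈ Fz g GEN :=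
  l7 h (Fz_app (y_pl h hZ hU hv) (Fz_mk h6 (Fz_mk h7 (Fz_nil v))))

theorem y_s1 : Fz g R4 ≤ Fz g ([4] :: E4) := fun _ hv => Fz_mk (l6 h (y_pl h hZ hU hv) [4] (by decide)) (y_le h hZ hU hv)

theorem y_r : Fz g R4 ≤ Fz g ([18] :: E4) := fun _ hv => Fz_mk (Fz_hd hv) (y_le h hZ hU hv)

theorem d_r : dz g ([18] :: E4) = dz g R4 := le_antisymm (dz_le (l8 h)) (dz_le (y_r h hZ hU))

/-- **the first case** -/
theorem row1 (hR : dz g R4 = 30) {P : Submodule KK LK} (hP : P ≤ Fz g E4) (hd : 8 ≤ finrank KK P) :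
    ∃ v, v ≠ 0 ∧ v ∈ P ∧ v ∈ Fz g GEN := by
  have a0 : finrank KK (Fz g E4) = 32 := dV h hZ hU
  have a1 : finrank KK (Fz g R4) = 30 := hR
  have a2 := dz_le (y_s1 h hZ hU)
  have a3 : finrank KK (Fz g ([6] :: E4)) = _ := d3 h
  have a4 : finrank KK (Fz g ([7] :: E4)) = _ := d4 h
  have b0 := y_le h hZ hU
  have b1 := dim_inf b0 (Q := Fz g ([6] :: E4)) fun _ => Fz_tl
  have b2 := dim_inf (inf_le_left.trans b0 : Fz g R4 ⊓ Fz g ([6] :: E4) ≤ _) (Q := Fz g ([7] :: E4)) fun _ => Fz_tl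
  have b3 := dim_inf (inf_le_left.trans (inf_le_left.trans b0) : (Fz g R4 ⊓ Fz g ([6] :: E4)) ⊓ Fz g ([7] :: E4) ≤ _) hP
  obtain ⟨v, ⟨⟨⟨c1, c2⟩, c3⟩, c4⟩, hv⟩ := exists_ne (P := ((Fz g R4 ⊓ Fz g ([6] :: E4)) ⊓ Fz g ([7] :: E4)) ⊓ P) (by omega)
  exact ⟨v, hv, c4, y_gen h hZ hU c1 (Fz_hd c2) (Fz_hd c3)⟩

theorem s1_rank (hR : dz g R4 = 16) : 24 ≤ dz g ([4] :: E4) := by
  have a1 := rank_le two_KK (r := h.op m18) (s := h.op m4) (h.op_cube m18 (by decide +kernel))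
    (h.op_hc m4 m18 (by decide +kernel))
    (fun v hv => (h.op_fix m4 v).2 (Fz_hd (y_s1 h hZ hU (l8 h (Fz_mk ((h.op_fix m18 v).1 hv) v.2)))))
    (h.op_sq m4 (by decide +kernel))
  rw [h.op_fk, d_r h hZ hU, hR] at a1
  have a0 : finrank KK (Fz g E4) = 32 := dV h hZ hU
  have a2 := h.op_nr m4
  rw [dV h hZ hU] at a2
  omega

/-- **the second case** -/
theorem row2 (hR : dz g R4 = 16) : ∃ v, v ≠ 0 ∧ v ∈ Fz g GEN := by
  obtain ⟨B, hB, hi⟩ := h.form (Z := E4) (by decide +kernel)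
  have a0 := dV h hZ hU
  have a1 := s1_rank h hZ hU hR
  have a2 := h.op_nr m4
  have a3 := h.op_nr m6
  have a4 := h.op_nr m7
  have a5 := d3 h
  have a6 := d4 h
  obtain ⟨v, h1, h2, h3, h4⟩ := fix_a two_KK hB ⟨h.op_sq m4 (by decide +kernel), hi m4⟩ ⟨h.op_sq m6 (by decide +kernel), hi m6⟩
    ⟨h.op_sq m7 (by decide +kernel), hi m7⟩ (h.op_rel m4 m6 m6 m4 (by decide +kernel)) (h.op_rel m4 m7 m7 m4 (by decide +kernel))
    (h.op_rel m6 m7 m7 m6 (by decide +kernel)) (Y := (Fz g R4).comap (Fz g E4).subtype)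
    (fun v hv => (h.op_fix m4 v).2 (Fz_hd (y_s1 h hZ hU hv))) a0
    ((Submodule.comapSubtypeEquivOfLe (y_le h hZ hU)).finrank_eq.trans hR) (by omega) (by omega) (by omega)
  exact ⟨v, fun e => h2 (Subtype.ext e), y_gen h hZ hU h1 ((h.op_fix m6 v).1 h3) ((h.op_fix m7 v).1 h4)⟩

variable (k : Sd okU g) (hD : dz g [[10]] = 86)

include k

theorem ss_le : Fz g SS ≤ Fz g E4 := Fz_eq (q1 k) (by rw [t2 k, hZ, dV h hZ hU])

include hD

theorem km_ge : 8 ≤ dz g ([99, 19] :: E4) := by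
  have a1 : Fz g KM ≤ Fz g ([99, 19] :: E4) := fun _ hv => Fz_mk (hv _ (by decide)) (ss_le h hZ hU k (q2 k hv))
  have a2 := dz_le a1
  have e0 := dz_nil (g := g)
  have e1 := k1 k
  have e2 := k2 k
  have e3 := t1 k
  have e4 := k.val (a := [99, 19]) (by decide +kernel)
  omega

theorem row1t (hR : dz g R4 = 30) : ∃ v, v ≠ 0 ∧ v ∈ Fz g GEN ∧ rE (pw g [99]) v = v := by
  obtain ⟨v, h1, h2, h3⟩ := row1 h hZ hU hR (P := Fz g ([99, 19] :: E4)) (fun _ => Fz_tl) (km_ge h hZ hU k hD)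
  have e : rE (pw g ([99] ++ [19])) v = v := Fz_hd h2
  rw [rE_app, Fz_hd (l13 h h3)] at e
  exact ⟨v, h1, h3, e⟩

theorem row2t (hR : dz g R4 = 16) (hY : dz g Zy = 80) (hE : dz g [[9]] = 92) :
    ∃ v, v ≠ 0 ∧ v ∈ Fz g GEN ∧ rE (pw g [99]) v = v := by
  obtain ⟨B, hB, hi⟩ := k.form (Z := E4) (by decide +kernel)
  have a0 := dV h hZ hU
  have a1 := s1_rank h hZ hU hR
  have a2 := k.op_nr n4
  have a3 := d_r h hZ hU
  have a4 : Fz g ([19] :: E4) ≤ Fz g ([5] :: [19] :: E4) := by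
    have b1 : Fz g R4 ≤ Fz g ([4] :: [18] :: E4) := fun _ hv => Fz_mk (Fz_hd (y_s1 h hZ hU hv)) (y_r h hZ hU hv)
    exact Fz_eq (fun _ => Fz_tl) (by rw [d5 h, d6 h, a3]; exact dz_le b1)
  have a5 : 11 ≤ dz g ([99] :: E4) := by
    have b1 : Fz g M0 ≤ Fz g ([99] :: E4) := fun _ hv => Fz_mk (hv _ (by decide)) (ss_le h hZ hU k (q3 k hv))
    have b2 := dz_le b1
    have b3 := tri_num _ (mem5 (k.val (by decide +kernel))) _ (mem5 (k.val (by decide +kernel))) _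
      (mem5 (k.val (by decide +kernel))) (hE ▸ k6 k)
    have e0 := dz_nil (g := g)
    have e1 := k3a k
    have e2 := k3b k
    have e3 := k3c k
    have e4 := k4a k
    have e5 := k4b k
    have e6 := k4c k
    have e7 := k5 k
    have e8 := t1 k
    have e9 := t3 k
    omega
  have a6 := km_ge h hZ hU k hD
  have a7 := k7 k
  obtain ⟨v, h1, h2, h3, h4⟩ := fix_b two_KK hB (k.op_cube n99 (by decide +kernel)) (hi n99)
    ⟨k.op_sq n4 (by decide +kernel), hi n4⟩ ⟨k.op_sq n6 (by decide +kernel), hi n6⟩ ⟨k.op_sq n5 (by decide +kernel), hi n5⟩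
    (k.op_rel n6 n99 n99 n4 (by decide +kernel)) (k.op_rel n4 n6 n6 n4 (by decide +kernel))
    (k.op_rel n5 n99 n99 n5 (by decide +kernel)) (k.op_cube n19 (by decide +kernel)) (k.op_hc n5 n19 (by decide +kernel))
    (fun v hv => (k.op_fix n5 v).2 (Fz_hd (a4 (Fz_mk ((k.op_fix n19 v).1 hv) v.2))))
    (k.op_rel n19 n99 n99 n19 (by decide +kernel)) (by omega) (by rw [k.op_fk]; exact a5)
    (by rw [k.op_fk, k.op_fk2]; omega)
  rw [k.op_fix] at h2 h3 h4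
  have c6 : rE (pw g [6]) v = v := by
    have e := congrArg (fun x => rE x v) (k ([6] ++ [99]) ([99] ++ [4]) (by decide +kernel))
    rwa [rE_app, rE_app, h2, h3, h2] at e
  have c7 : rE (pw g [7]) v = v := by
    have e := congrArg (fun x => rE x v) (k ([7] ++ [99]) ([99] ++ [6]) (by decide +kernel))
    rwa [rE_app, rE_app, h2, c6, h2] at e
  have c18 : rE (pw g [18]) v = v := by rw [h [18] ([4] ++ [5]) (by decide +kernel), rE_app, h4, h3]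
  exact ⟨v, fun e => h1 (Subtype.ext e), y_gen h hZ hU (l8 h (Fz_mk c18 v.2)) c6 c7, h2⟩

end big

end Cfsg.Agent.E82.O8
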