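import Cfsg.Agent.E82.O8.Model

/-!
# S3369, the row `Ω₈⁺(2)`: more tools for words (helper94)
-/

set_option autoImplicit false
set_option maxRecDepth 100000

namespace Cfsg.Agent.E82.O8

open Module Cfsg Cfsg.Lie
open Cfsg.Agent.H175.LD (Fk mem_Fk)
open Cfsg.Agent.H939.L64 (KK E2 LK rE rE_mul rE_one)
open Cfsg.Agent.E82.Mach

variable {ok : List ℕ → List ℕ → Bool} {g : ℕ → E2}

theorem Sd.nine (h : Sd ok g) {a w : List ℕ} (k1 : ok (a ++ (a ++ a)) w = true) (k2 : ok (w ++ (w ++ w)) [] = true)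
    (h0 : pw g w ≠ 1) : dz g [w] = 86 ∧ (dz g [a] = 28 ∨ dz g [a] = 48 ∨ dz g [a] = 34 ∨ dz g [a] = 30) := by
  have e : pw g a ^ 3 = pw g w := by
    rw [pow_succ', pow_two, ← pw_append, ← pw_append]
    exact h _ _ k1
  have e1 := fd9 (x := pw g a) (by rw [show 9 = 3 * 3 from rfl, pow_mul, e, h.cube k2]) (e ▸ h0)
  rwa [e, ← dz_one, ← dz_one] at e1

/-- the words of a list are conjugate to a given word -/
def cfOk (ok : List ℕ → List ℕ → Bool) (L : List (List ℕ)) (w : List ℕ) (cs : List EC) : Bool :=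
  (List.range L.length).all fun i => eqOk ok [L.getD i []] [w] (cs.getD i (([], []), [], []))

theorem Sd.cfl (h : Sd ok g) {L : List (List ℕ)} {w : List ℕ} {cs : List EC} (k : cfOk ok L w cs = true) :
    ∀ w' ∈ L, cf (pw g w') = dz g [w] := by
  intro w' hw
  obtain ⟨i, hi, rfl⟩ := List.getElem_of_mem hw
  have e := h.cfq (List.all_eq_true.1 k i (List.mem_range.2 hi))
  rwa [List.getD_eq_getElem _ _ hi] at e

theorem dz_le {Z Z' : List (List ℕ)} (h : Fz g Z ≤ Fz g Z') : dz g Z ≤ dz g Z' := Submodule.finrank_mono h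

theorem Fz_mk {w : List ℕ} {Z : List (List ℕ)} {v : LK} (h : rE (pw g w) v = v) (h' : v ∈ Fz g Z) : v ∈ Fz g (w :: Z) :=
  List.forall_mem_cons.2 ⟨h, h'⟩

theorem Fz_hd {w : List ℕ} {Z : List (List ℕ)} {v : LK} (h : v ∈ Fz g (w :: Z)) : rE (pw g w) v = v := h w List.mem_cons_self

theorem Fz_tl {w : List ℕ} {Z : List (List ℕ)} {v : LK} (h : v ∈ Fz g (w :: Z)) : v ∈ Fz g Z := fun a ha =>
  h a (List.mem_cons_of_mem _ ha)

theorem dim_inf {V P Q : Submodule KK LK} (hP : P ≤ V) (hQ : Q ≤ V) :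
    finrank KK P + finrank KK Q ≤ finrank KK V + finrank KK ↥(P ⊓ Q) := by
  have e := Submodule.finrank_sup_add_finrank_inf_eq P Q
  have e1 := Submodule.finrank_mono (sup_le hP hQ)
  omega

theorem exists_ne {P : Submodule KK LK} (h : 0 < finrank KK P) : ∃ v ∈ P, v ≠ 0 :=
  (Submodule.ne_bot_iff _).1 fun e => by rw [e, finrank_bot] at h; omega

theorem two_KK : (2 : KK) = 0 := CharTwo.two_eq_zero

section op

variable (h : Sd ok g) {Z : List (List ℕ)} {a b c d : List ℕ} {ca cb cc cd : List (List ℕ)}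

theorem Sd.op_rel (ea : mapOk ok a Z Z ca = true) (eb : mapOk ok b Z Z cb = true) (ec : mapOk ok c Z Z cc = true)
    (ed : mapOk ok d Z Z cd = true) (k : ok (a ++ b) (c ++ d) = true) (v : Fz g Z) :
    h.op ea (h.op eb v) = h.op ec (h.op ed v) :=
  Subtype.ext (by rw [h.op_apply, h.op_apply, h.op_apply, h.op_apply, ← rE_app, ← rE_app, h _ _ k])

theorem Sd.op_sq (ea : mapOk ok a Z Z ca = true) (k : ok (a ++ a) [] = true) (v : Fz g Z) : h.op ea (h.op ea v) = v :=
  Subtype.ext (by rw [h.op_apply, h.op_apply, ← rE_app, h _ _ k, pw_nil, rE_one])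

theorem Sd.op_cube (ea : mapOk ok a Z Z ca = true) (k : ok (a ++ (a ++ a)) [] = true) (v : Fz g Z) :
    h.op ea (h.op ea (h.op ea v)) = v :=
  Subtype.ext (by rw [h.op_apply, h.op_apply, h.op_apply, ← rE_app, ← rE_app, List.append_assoc, h _ _ k, pw_nil, rE_one])

theorem Sd.op_hc (ea : mapOk ok a Z Z ca = true) (eb : mapOk ok b Z Z cb = true) (k : ok (a ++ b) (b ++ (b ++ a)) = true)
    (v : Fz g Z) : h.op ea (h.op eb v) = h.op eb (h.op eb (h.op ea v)) :=
  Subtype.ext (by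
    rw [h.op_apply, h.op_apply, h.op_apply, h.op_apply, h.op_apply, ← rE_app, h _ _ k, rE_app, rE_app])

theorem Sd.op_fix (ea : mapOk ok a Z Z ca = true) (v : Fz g Z) : h.op ea v = v ↔ rE (pw g a) v = v := Subtype.ext_iff

theorem Sd.op_nr (ea : mapOk ok a Z Z ca = true) : finrank KK (Nr (h.op ea)) + dz g (a :: Z) = dz g Z := by
  rw [← h.op_fk ea]
  exact Nr_add_Fk _

end op

end Cfsg.Agent.E82.O8
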